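import Cfsg.Agent.BG.B6

/-! Strongly transitive actions on generalized polygons, described by a class of frames (apartments). -/

set_option autoImplicit false
set_option linter.unusedSectionVars false

namespace CF.BN2
open Subgroup MulAction Cfsg CF.BG

variable {G V : Type*} [Group G] [MulAction G V]

/-- `g` fixes `x a, …, x b` -/
def Fx (g : G) (x : ℤ → V) (a b : ℤ) : Prop := ∀ k, a ≤ k → k ≤ b → g • x k = x k

/-- `g` fixes the frame -/
def Fa (g : G) (x : ℤ → V) : Prop := ∀ k, g • x k = x k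

section
variable {x y : ℤ → V} {a b c d : ℤ} {g h : G}

theorem Fx.mul (s : Fx g x a b) (t : Fx h x a b) : Fx (g * h) x a b := fun k u v => by rw [mul_smul, t k u v, s k u v]

theorem Fx.inv (s : Fx g x a b) : Fx g⁻¹ x a b := fun k u v => by rw [inv_smul_eq_iff, s k u v]

theorem Fa.mul (s : Fa g x) (t : Fa h x) : Fa (g * h) x := fun k => by rw [mul_smul, t k, s k]

theorem Fa.inv (s : Fa g x) : Fa g⁻¹ x := fun k => by rw [inv_smul_eq_iff, s k]

theorem Fx.mono (h : Fx g x a b) (s : a ≤ c := by omega) (t : d ≤ b := by omega) : Fx g x c d :=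
  fun k u v => h k (s.trans u) (v.trans t)

theorem Fx.at (h : Fx g x a b) (k : ℤ) (s : a ≤ k := by omega) (t : k ≤ b := by omega) : g • x k = x k := h k s t

theorem Fx.up (h : Fx g x a b) (c : ℤ) (k : g • x c = x c) (e : c = b + 1 := by omega) : Fx g x a c := fun j s t => by
  by_cases q : j = c
  · exact q ▸ k
  · exact h j s (by omega)

theorem Fx.down (h : Fx g x a b) (c : ℤ) (k : g • x c = x c) (e : c = a - 1 := by omega) : Fx g x c b := fun j s t => by
  by_cases q : j = c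
  · exact q ▸ k
  · exact h j (by omega) t

theorem Fx.one (k : g • x a = x a) : Fx g x a a := fun j s t => by rwa [show j = a by omega]

theorem Fx.congr (h : Fx g x a b) (e : ∀ k, a ≤ k → k ≤ b → y k = x k) : Fx g y a b :=
  fun k s t => by rw [e k s t, h k s t]

theorem Fa.fx (h : Fa g x) (a b : ℤ) : Fx g x a b := fun k _ _ => h k

end

/-- pointwise stabiliser of `x a, …, x b` -/
def St (G : Type*) [Group G] [MulAction G V] (x : ℤ → V) (a b : ℤ) : Subgroup G where
  carrier := {g | Fx g x a b}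
  one_mem' := fun _ _ _ => one_smul _ _
  mul_mem' := Fx.mul
  inv_mem' := Fx.inv

/-- pointwise stabiliser of the frame -/
def Tx (G : Type*) [Group G] [MulAction G V] (x : ℤ → V) : Subgroup G where
  carrier := {g | Fa g x}
  one_mem' := fun _ => one_smul _ _
  mul_mem' := Fa.mul
  inv_mem' := Fa.inv

theorem cj_fix {g h : G} {y : V} (e : g • (h • y) = h • y) : (h⁻¹ * g * h) • y = y := by
  rw [mul_smul, mul_smul, e, inv_smul_smul]

theorem cj_fix' {g h : G} {y : V} (e : g • y = y) : (h * g * h⁻¹) • (h • y) = h • y := by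
  rw [mul_smul, mul_smul, inv_smul_smul, e]

theorem fix_of_cj {g h : G} {y : V} (e : (h⁻¹ * g * h) • y = y) : g • (h • y) = h • y := by
  rw [mul_smul, mul_smul, inv_smul_eq_iff] at e; exact e

theorem comm_fix {g h : G} {y : V} (c : g * h = h * g) (e : g • y = y) : g • (h • y) = h • y := by
  rw [← mul_smul, c, mul_smul, e]

structure Poly (G V : Type*) [Group G] [MulAction G V] where
  n : ℤ
  adj : V → V → Prop
  Fr : (ℤ → V) → Prop
  three : 3 ≤ n
  symm : ∀ {a b : V}, adj a b → adj b a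
  inv : ∀ (g : G) {a b : V}, adj a b → adj (g • a) (g • b)
  smul : ∀ (g : G) {x : ℤ → V}, Fr x → Fr fun k => g • x k
  shift : ∀ (c : ℤ) {x : ℤ → V}, Fr x → Fr fun k => x (k + c)
  rev : ∀ {x : ℤ → V}, Fr x → Fr fun k => x (-k)
  ad0 : ∀ {x : ℤ → V}, Fr x → adj (x 0) (x 1)
  ne0 : ∀ {x : ℤ → V}, Fr x → x (-1) ≠ x 1
  per0 : ∀ {x : ℤ → V}, Fr x → x (2 * n) = x 0
  st0 : ∀ {x : ℤ → V} {y : V}, Fr x → adj (x n) y → y ≠ x (n - 1) → ∃ g : G, Fx g x 0 n ∧ g • x (n + 1) = y
  ap0 : ∀ {x : ℤ → V} {g : G}, Fr x → Fx g x 0 (n + 1) → g • x (n + 2) = x (n + 2)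
  refl0 : ∀ {x : ℤ → V}, Fr x → ∃ g : G, ∀ k, g • x k = x (-k)
  thick0 : ∀ {x : ℤ → V}, Fr x → ∃ y, adj (x 0) y ∧ y ≠ x (-1) ∧ y ≠ x 1

namespace Poly
variable (P : Poly G V) {x : ℤ → V} {y z : V} {g h : G}

/-- kernel of the local action at `y` -/
def K (y : V) : Subgroup G where
  carrier := {g | g • y = y ∧ ∀ z, P.adj y z → g • z = z}
  one_mem' := ⟨one_smul _ _, fun _ _ => one_smul _ _⟩
  mul_mem' := fun {g h} hg hh => ⟨by rw [mul_smul, hh.1, hg.1], fun z a => by rw [mul_smul, hh.2 z a, hg.2 z a]⟩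
  inv_mem' := fun {g} hg => ⟨by rw [inv_smul_eq_iff, hg.1], fun z a => by rw [inv_smul_eq_iff, hg.2 z a]⟩

variable {P}

theorem inv' (g : G) (a : P.adj (g • y) (g • z)) : P.adj y z := by simpa using P.inv g⁻¹ a

theorem adj_fix (e : g • y = y) (a : P.adj y z) : P.adj y (g • z) := by simpa [e] using P.inv g a

theorem K.cj (k : g ∈ P.K y) (h : G) : h * g * h⁻¹ ∈ P.K (h • y) :=
  ⟨cj_fix' k.1, fun z a => by
    have := cj_fix' (h := h) (k.2 (h⁻¹ • z) (inv' h (by rwa [smul_inv_smul])))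
    rwa [smul_inv_smul] at this⟩

theorem K.of_cj (k : h⁻¹ * g * h ∈ P.K y) : g ∈ P.K (h • y) := by simpa [mul_assoc] using K.cj k h

theorem K.cj' (k : g ∈ P.K (h • y)) : h⁻¹ * g * h ∈ P.K y := by simpa using K.cj k h⁻¹

theorem K.nm (k : g ∈ P.K y) (e : h • y = y) : h * g * h⁻¹ ∈ P.K y := by simpa [e] using K.cj k h

theorem K.nm' (k : g ∈ P.K y) (e : h • y = y) : h⁻¹ * g * h ∈ P.K y := K.cj' (by rwa [e])

theorem rv (hx : P.Fr x) (c : ℤ) : P.Fr fun k => x (c - k) := by
  simpa [sub_eq_neg_add] using P.rev (P.shift c hx)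

theorem ad (hx : P.Fr x) (i j : ℤ) (e : j = i + 1 ∨ j = i - 1 := by omega) : P.adj (x i) (x j) := by
  rcases e with rfl | rfl
  · simpa [add_comm] using P.ad0 (P.shift i hx)
  · exact P.symm (by simpa [add_comm] using P.ad0 (P.shift (i - 1) hx))

theorem ne (hx : P.Fr x) (i j : ℤ) (e : j = i + 2 ∨ j = i - 2 := by omega) : x i ≠ x j := by
  rcases e with rfl | rfl
  · have := P.ne0 (P.shift (i + 1) hx)
    rwa [show -1 + (i + 1) = i by omega, show 1 + (i + 1) = i + 2 by omega] at this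
  · have := P.ne0 (P.shift (i - 1) hx)
    rw [show -1 + (i - 1) = i - 2 by omega, show 1 + (i - 1) = i by omega] at this
    exact this.symm

theorem per (hx : P.Fr x) (i j : ℤ) (e : j = i + 2 * P.n := by omega) : x j = x i := by
  subst e; simpa [add_comm] using P.per0 (P.shift i hx)

theorem K.up {i : ℤ} (k : g ∈ P.K (x i)) (hx : P.Fr x) (j : ℤ) (e : j = i + 1 ∨ j = i - 1 := by omega) : g • x j = x j :=
  k.2 _ (ad hx i j e)

theorem stU (hx : P.Fr x) (a i j l : ℤ) (s : P.adj (x i) y) (t : y ≠ x j)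
    (e : j = i - 1 ∧ l = i + 1 ∧ i - P.n ≤ a := by omega) : ∃ g : G, Fx g x a i ∧ g • x l = y := by
  obtain ⟨rfl, rfl, e⟩ := e
  obtain ⟨g, hg, k⟩ := P.st0 (y := y) (P.shift (i - P.n) hx) (by simpa using s)
    (by rwa [show P.n - 1 + (i - P.n) = i - 1 by omega])
  refine ⟨g, fun k u v => ?_, by rwa [show P.n + 1 + (i - P.n) = i + 1 by omega] at k⟩
  simpa using hg (k - (i - P.n)) (by omega) (by omega)

theorem stD (hx : P.Fr x) (a i j l : ℤ) (s : P.adj (x i) y) (t : y ≠ x j)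
    (e : j = i + 1 ∧ l = i - 1 ∧ a ≤ i + P.n := by omega) : ∃ g : G, Fx g x i a ∧ g • x l = y := by
  obtain ⟨rfl, rfl, e⟩ := e
  obtain ⟨g, hg, k⟩ := stU (y := y) (P.rev hx) (-a) (-i) (-(i + 1)) (-(i - 1)) (by simpa using s) (by rwa [neg_neg])
  refine ⟨g, fun k u v => ?_, by rwa [neg_neg] at k⟩
  simpa using hg (-k) (by omega) (by omega)

theorem ap (hx : P.Fr x) {a b : ℤ} (h : Fx g x a b) (e : a + P.n + 1 ≤ b := by omega) : Fa g x := by
  have := P.three
  have u : ∀ m : ℕ, Fx g x a (b + m) := fun m => by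
    induction m with
    | zero => simpa using h
    | succ m ih =>
      refine ih.up _ ?_ (by push_cast; omega)
      have := P.ap0 (g := g) (P.shift (b + m - P.n - 1) hx) fun k s t => ih _ (by omega) (by omega)
      rwa [show P.n + 2 + (b + m - P.n - 1) = b + ((m + 1 : ℕ) : ℤ) by push_cast; omega] at this
  have v : ∀ k, a ≤ k → g • x k = x k := fun k s => u (k - b).toNat k s (by omega)
  have w : ∀ m : ℕ, ∀ k, a - m ≤ k → g • x k = x k := fun m => by
    induction m with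
    | zero => simpa using v
    | succ m ih => exact fun k s => by rw [← per hx k _ rfl]; exact ih _ (by push_cast at s; omega)
  exact fun k => w (a - k).toNat k (by omega)

theorem refl (hx : P.Fr x) (c : ℤ) : ∃ g : G, ∀ k, g • x k = x (2 * c - k) := by
  obtain ⟨g, h⟩ := P.refl0 (P.shift c hx)
  exact ⟨g, fun k => by simpa [show -(k - c) + c = 2 * c - k by omega, show c - k + c = 2 * c - k by omega] using h (k - c)⟩

theorem thick (hx : P.Fr x) (i j l : ℤ) (e : j = i - 1 ∧ l = i + 1 := by omega) :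
    ∃ y, P.adj (x i) y ∧ y ≠ x j ∧ y ≠ x l := by
  obtain ⟨rfl, rfl⟩ := e
  simpa [sub_eq_neg_add, add_comm] using P.thick0 (P.shift i hx)

theorem exU (hx : P.Fr x) (i j l : ℤ) (s : P.adj (x i) y) (t : y ≠ x j) (e : j = i - 1 ∧ l = i + 1 := by omega) :
    ∃ x', P.Fr x' ∧ (∀ k, i - P.n ≤ k → k ≤ i → x' k = x k) ∧ x' l = y :=
  let ⟨g, hg, k⟩ := stU hx (i - P.n) i j l s t
  ⟨_, P.smul g hx, hg, k⟩

theorem exD (hx : P.Fr x) (i j l : ℤ) (s : P.adj (x i) y) (t : y ≠ x j) (e : j = i + 1 ∧ l = i - 1 := by omega) :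
    ∃ x', P.Fr x' ∧ (∀ k, i ≤ k → k ≤ i + P.n → x' k = x k) ∧ x' l = y :=
  let ⟨g, hg, k⟩ := stD hx (i + P.n) i j l s t
  ⟨_, P.smul g hx, hg, k⟩

/-- a path without backtracking of length at most `n + 1` lies in a frame -/
theorem path (hx : P.Fr x) (y : ℤ → V) (b c : ℤ) (bc : b < c) (e : ∀ k, b ≤ k → k ≤ c → y k = x k) (m : ℕ)
    (hm : c - (b - m) ≤ P.n + 1) (s : ∀ k, b - m < k → k ≤ b → P.adj (y k) (y (k - 1)) ∧ y (k - 1) ≠ y (k + 1)) :
    ∃ x', P.Fr x' ∧ ∀ k, b - m ≤ k → k ≤ c → y k = x' k := by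
  induction m with
  | zero => exact ⟨x, hx, by simpa using e⟩
  | succ m ih =>
    push_cast at hm s ⊢
    obtain ⟨x', h', e'⟩ := ih (by omega) fun k u v => s k (by omega) v
    obtain ⟨u, v⟩ := s (b - m) (by omega) (by omega)
    rw [e' _ le_rfl (by omega)] at u
    rw [e' (b - m + 1) (by omega) (by omega)] at v
    obtain ⟨x'', h'', e'', f⟩ := exD h' _ _ (b - m - 1) u v
    refine ⟨x'', h'', fun k s t => ?_⟩
    by_cases q : k = b - m - 1
    · rw [q, f]
    · rw [e'' k (by omega) (by omega), e' k (by omega) t]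

/-- opposite vertices -/
theorem opD (hx : P.Fr x) (a b : ℤ) (h : Fx g x a b) (k : g ∈ P.K (x b)) (e : b = a + P.n := by omega) :
    g ∈ P.K (x a) := by
  have := P.three
  refine ⟨h.at a, fun z s => ?_⟩
  by_cases q : z = x (a + 1)
  · exact q ▸ h.at _
  obtain ⟨u, hu, rfl⟩ := stD hx b a _ (a - 1) s q
  refine fix_of_cj (ap hx (((hu.inv.mul h).mul hu).up (b + 1) (cj_fix (k.2 _ ?_))) (by omega) _)
  exact adj_fix (hu.at b) (ad hx _ _)

theorem opU (hx : P.Fr x) (a b : ℤ) (h : Fx g x a b) (k : g ∈ P.K (x a)) (e : b = a + P.n := by omega) :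
    g ∈ P.K (x b) := by
  simpa using opD (g := g) (P.rev hx) (-b) (-a) (fun k s t => h _ (by omega) (by omega)) (by simpa using k)

theorem K_next (hx : P.Fr x) (t : Fa g x) (i : ℤ) (k : g ∈ P.K (x i)) (k' : g ∈ P.K (x (i + 1))) :
    g ∈ P.K (x (i + 2)) := by
  have := P.three
  obtain ⟨y, s, u, v⟩ := thick hx (i + 1) i (i + 2)
  obtain ⟨x', h', e', f'⟩ := exD hx (i + 1) _ i s v
  obtain ⟨x'', h'', e'', f''⟩ := exU hx (i + 1) _ (i + 2) s u
  have ky : g ∈ P.K y := f' ▸ opD h' i (i + P.n) (((t.fx (i + 1) (i + P.n)).congr fun k s t => e' k s (by omega)).down i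
    (f' ▸ k'.2 _ s)) (by rw [e' _ (by omega) (by omega)]; exact opU hx i _ (t.fx _ _) k)
  have := opD h'' (i + 2 - P.n) (i + 2) (((t.fx (i + 2 - P.n) (i + 1)).congr fun k s t => e'' k (by omega) t).up _
    (f'' ▸ k'.2 _ s)) (f'' ▸ ky)
  rw [e'' _ (by omega) (by omega)] at this
  exact opU hx _ _ (t.fx _ _) this

theorem K_all (hx : P.Fr x) (t : Fa g x) (i : ℤ) (k : g ∈ P.K (x i)) (k' : g ∈ P.K (x (i + 1))) (j : ℤ) :
    g ∈ P.K (x j) := by
  have := P.three
  have u : ∀ m : ℕ, g ∈ P.K (x (i + m)) ∧ g ∈ P.K (x (i + m + 1)) := fun m => by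
    induction m with
    | zero => simpa using ⟨k, k'⟩
    | succ m ih =>
      push_cast
      rw [← add_assoc, add_assoc (i + m) 1 1]
      exact ⟨ih.2, K_next hx t _ ih.1 ih.2⟩
  have w : ∀ m : ℕ, ∀ k, i - m ≤ k → g ∈ P.K (x k) := fun m => by
    induction m with
    | zero => exact fun k s => (show i + (k - i).toNat = k by omega) ▸ (u (k - i).toNat).1
    | succ m ih => exact fun k s => by rw [← per hx k _ rfl]; exact ih _ (by push_cast at s; omega)
  exact w (i - j).toNat j (by omega)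

/-- the edge stabiliser is generated by the stabilisers of the roots through the edge -/
theorem edge_le (hx : P.Fr x) {M : Subgroup G} (h : ∀ a, St G x a (a + P.n) ≤ M) (i : ℤ) : St G x i (i + 1) ≤ M := by
  have := P.three
  have u : ∀ m : ℕ, (m : ℤ) < P.n → St G x i (i + P.n - m) ≤ M := fun m => by
    induction m with
    | zero => simpa using fun _ => h i
    | succ m ih =>
      intro s g hg
      push_cast at s hg
      obtain ⟨v, hv, e⟩ := stU hx (i - m - 1) (i + P.n - (m + 1)) (i + P.n - (m + 1) - 1) (i + P.n - m)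
        (adj_fix (hg.at _) (ad hx _ (i + P.n - m))) (fun q => ne hx (i + P.n - m) (i + P.n - (m + 1) - 1) (by omega)
          (MulAction.injective g (q.trans (hg.at _).symm)))
      have := mul_mem (h (i - m - 1) hv.mono) (ih (by omega) ((hv.mono.inv.mul hg).up (i + P.n - m)
        (by rw [mul_smul, ← e, inv_smul_smul])))
      simpa using this
  exact (show i + P.n - (P.n - 1).toNat = i + 1 by omega) ▸ u (P.n - 1).toNat (by omega)

theorem vert_le (hx : P.Fr x) {M : Subgroup G} (i : ℤ) (h : St G x i (i + 1) ≤ M)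
    (r : ∀ g : G, (∀ k, g • x k = x (2 * i - k)) → g ∈ M) : stabilizer G (x i) ≤ M := by
  have := P.three
  intro g (hg : g • x i = x i)
  have b : ∀ g : G, g • x i = x i → g • x (i + 1) = x (i + 1) → g ∈ M := fun g s t =>
    h ((Fx.one s).up _ t)
  by_cases q : g • x (i + 1) = x (i + 1)
  · exact b g hg q
  obtain ⟨v, hv, e⟩ := stD hx (i + 1) i _ (i - 1) (adj_fix hg (ad hx _ _)) q
  obtain ⟨w, hw⟩ := refl hx i
  have := b (g⁻¹ * v * w) (by rw [mul_smul, mul_smul, hw, show 2 * i - i = i by omega, hv.at i, inv_smul_eq_iff, hg])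
    (by rw [mul_smul, mul_smul, hw, show 2 * i - (i + 1) = i - 1 by omega, e, inv_smul_smul])
  simpa using inv_mem (mul_mem (mul_mem this (inv_mem (r w hw))) (inv_mem (h hv)))

/-- centralising an element which moves a vertex close to the beginning of a root -/
theorem cen (hx : P.Fr x) {X : Subgroup G} {c : G} (k : ℤ) (k0 : 0 ≤ k) (kn : 2 * k < P.n) (s : c • x k = x k)
    (t : c • x (k + 1) ≠ x (k + 1)) (le : X ≤ St G x 0 P.n) (nm : St G x 0 P.n ≤ 𝐍 X) (cm : ∀ g ∈ X, g * c = c * g) :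
    X ≤ P.K (x P.n) := by
  have := P.three
  obtain ⟨x', h', e⟩ := path hx (fun j => if j ≤ k then c • x (2 * k - j) else x j) k P.n (by omega)
    (fun j u v => by
      split_ifs with q
      · rw [show j = k by omega, show 2 * k - k = k by omega, s]
      · rfl) (k + 1).toNat (by omega) fun j u v => by
      simp only [if_pos v, if_pos (show j - 1 ≤ k by omega)]
      refine ⟨P.inv c (ad hx _ _), ?_⟩
      split_ifs with q
      · exact fun r => ne hx _ _ (by omega) (MulAction.injective c r)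
      · rwa [show j = k by omega, show 2 * k - (k - 1) = k + 1 by omega]
  have e1 : x' P.n = x P.n := by rw [← e _ (by omega) le_rfl, if_neg (by omega)]
  have e2 : x' (P.n - 1) = x (P.n - 1) := by rw [← e _ (by omega) (by omega), if_neg (by omega)]
  have f : ∀ g ∈ X, g • x' (P.n + 1) = x' (P.n + 1) := fun g hg => ap h' (a := -1) (b := P.n) (fun j u v => by
    rw [← e j (by omega) v]
    split_ifs with q
    · exact comm_fix (cm g hg) ((le hg).at _)
    · exact (le hg).at _) (by omega) _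
  obtain ⟨u, hu, eu⟩ := stU hx 0 P.n (P.n - 1) (P.n + 1) (e1 ▸ ad h' _ (P.n + 1)) (e2 ▸ ne h' (P.n + 1) (P.n - 1))
  refine fun g hg => ⟨(le hg).at _, fun z a => ?_⟩
  by_cases q : z = x (P.n - 1)
  · exact q ▸ (le hg).at _
  obtain ⟨v, hv, rfl⟩ := stU hx 0 P.n _ (P.n + 1) a q
  have := f _ (conj_mem_of_norm' (nm (mul_mem hv (inv_mem hu))) hg)
  rw [← eu] at this
  simpa [mul_smul] using fix_of_cj this

end Poly
end CF.BN2
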