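import Cfsg.Agent.BN2.A

/-! Split actions on polygons: the Fitting subgroup of an edge stabiliser is a `p`-group. -/

set_option autoImplicit false
set_option linter.unusedSectionVars false

namespace CF.BN2
open Subgroup MulAction Cfsg CF.BG

variable {G V : Type*} [Group G] [MulAction G V]

/-- edge stabiliser -/
def E (G : Type*) [Group G] [MulAction G V] (y z : V) : Subgroup G := stabilizer G y ⊓ stabilizer G z

/-- its Fitting subgroup -/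
def F (G : Type*) [Group G] [MulAction G V] (y z : V) : Subgroup G := 𝐅 (E G y z)

/-- membership in `F` -/
def Fm (g : G) (y z : V) : Prop := g ∈ F G y z

section
variable {y z : V} {g h : G}

theorem mem_E : g ∈ E G y z ↔ g • y = y ∧ g • z = z := Iff.rfl

theorem E_symm (y z : V) : E G y z = E G z y := inf_comm _ _

theorem F_symm (y z : V) : F G y z = F G z y := by rw [F, E_symm, F]

theorem cj_E (h : G) (y z : V) : cj h (E G y z) = E G (h • y) (h • z) := by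
  ext g; rw [mem_cj]; exact ⟨fun k => ⟨fix_of_cj k.1, fix_of_cj k.2⟩, fun k => ⟨cj_fix k.1, cj_fix k.2⟩⟩

theorem Fm.symm (k : Fm g y z) : Fm g z y := by rwa [Fm, F_symm]

theorem Fm.l (k : Fm g y z) : g • y = y := (F_le _ k).1

theorem Fm.r (k : Fm g y z) : g • z = z := (F_le _ k).2

theorem Fm.mul (k : Fm g y z) (l : Fm h y z) : Fm (g * h) y z := mul_mem k l

theorem Fm.inv (k : Fm g y z) : Fm g⁻¹ y z := inv_mem k

theorem Fm.pow (k : Fm g y z) (n : ℕ) : Fm (g ^ n) y z := pow_mem k n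

variable [Finite G]

theorem cj_F' (h : G) (y z : V) : cj h (F G y z) = F G (h • y) (h • z) := by rw [F, cj_F, cj_E, F]

theorem Fm.cj (k : Fm g y z) (h : G) : Fm (h * g * h⁻¹) (h • y) (h • z) := by
  rw [Fm, ← cj_F']; exact conj_mem_cj.2 k

theorem Fm.cj' (k : Fm g (h • y) (h • z)) : Fm (h⁻¹ * g * h) y z := by simpa using k.cj h⁻¹

theorem Fm.nm (k : Fm g y z) (s : h • y = y) (t : h • z = z) : Fm (h * g * h⁻¹) y z := by simpa [s, t] using k.cj h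

theorem Fm.nm' (k : Fm g y z) (s : h • y = y) (t : h • z = z) : Fm (h⁻¹ * g * h) y z := Fm.cj' (by rwa [s, t])

end

structure SPoly (G V : Type*) [Group G] [MulAction G V] extends Poly G V where
  conn : ∀ {x x' : ℤ → V}, Fr x → Fr x' → ∃ (g : G) (c : ℤ), ∀ k, x' k = g • x (k + c)
  faith : ∀ {x : ℤ → V} {H : Subgroup G}, Fr x → H ≤ E G (x 0) (x 1) → stabilizer G (x 0) ≤ 𝐍 H →
    stabilizer G (x 1) ≤ 𝐍 H → H = ⊥
  split : ∀ {x : ℤ → V} {g : G}, Fr x → g • x 0 = x 0 → g • x 1 = x 1 → ∃ u t, Fm u (x 0) (x 1) ∧ Fa t x ∧ g = u * t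

namespace SPoly
open Poly
variable [Finite G] {P : SPoly G V} {x : ℤ → V} {y z : V} {g h : G}

theorem one (hx : P.Fr x) (t : Fa g x) (i j : ℤ) (k : g ∈ P.K (x i)) (k' : g ∈ P.K (x j)) (e : j = i + 1 := by omega) :
    g = 1 := by
  subst e
  have := P.three
  let H : Subgroup G := Tx G x ⊓ ⨅ k, P.K (x k)
  have mem : ∀ {g : G} (i : ℤ), Fa g x → g ∈ P.K (x i) → g ∈ P.K (x (i + 1)) → g ∈ H := fun i t k k' =>
    ⟨t, mem_iInf.2 (K_all hx t i k k')⟩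
  have a : ∀ a, St G x a (a + P.n) ≤ 𝐍 H := fun a => le_norm_iff.2 fun u hu g hg => by
    have s := mem_iInf.1 hg.2
    have v : Fx u x a (a + P.n) := hu
    refine mem a (ap hx (((v.mul (Fa.fx hg.1 _ _)).mul v.inv).up (a + P.n + 1)
      ((K.nm (s _) (v.at _)).2 _ (ad hx (a + P.n) _)))) (K.nm (s _) (v.at _)) (K.nm (s _) (v.at _))
  have r : ∀ i, ∀ u : G, (∀ k, u • x k = x (2 * i - k)) → u ∈ 𝐍 H := fun i u hu => mem_norm_of_cj_le fun g hg => by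
    obtain ⟨g, hw, rfl⟩ := mem_cj_iff.1 hg
    have f : ∀ k, x k = u • x (2 * i - k) := fun k => by rw [hu]; congr 1; omega
    exact ⟨fun k => f k ▸ cj_fix' (hw.1 _), mem_iInf.2 fun k => f k ▸ K.cj (mem_iInf.1 hw.2 _) u⟩
  have := P.faith hx (H := H) (fun g hg => ⟨hg.1 0, hg.1 1⟩) (vert_le hx 0 (edge_le hx a 0) (r 0))
    (vert_le hx 1 (edge_le hx a 1) (r 1))
  exact mem_bot.1 (this ▸ mem i t k k')

/-- root elations act semiregularly -/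
theorem oneU (hx : P.Fr x) {a b : ℤ} (h : Fx g x a b) (i j l : ℤ) (k : g ∈ P.K (x i)) (k' : g ∈ P.K (x j))
    (s : P.adj (x b) y) (t : y ≠ x l) (f : g • y = y)
    (e : j = i + 1 ∧ l = b - 1 ∧ a + P.n ≤ b ∧ b - P.n ≤ i ∧ j ≤ b := by omega) : g = 1 := by
  obtain ⟨x', h', e', f'⟩ := exU hx b l (b + 1) s t
  refine one h' (ap h' (((h.mono (c := b - P.n) (d := b)).congr e').up (b + 1) (f' ▸ f))) i j ?_ ?_
  · rwa [e' _ (by omega) (by omega)]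
  · rwa [e' _ (by omega) (by omega)]

theorem oneD (hx : P.Fr x) {a b : ℤ} (h : Fx g x a b) (i j l : ℤ) (k : g ∈ P.K (x i)) (k' : g ∈ P.K (x j))
    (s : P.adj (x a) y) (t : y ≠ x l) (f : g • y = y)
    (e : j = i + 1 ∧ l = a + 1 ∧ a + P.n ≤ b ∧ a ≤ i ∧ j ≤ a + P.n := by omega) : g = 1 := by
  obtain ⟨x', h', e', f'⟩ := exD hx a l (a - 1) s t
  refine one h' (ap h' (((h.mono (c := a) (d := a + P.n)).congr e').down (a - 1) (f' ▸ f))) i j ?_ ?_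
  · rwa [e' _ (by omega) (by omega)]
  · rwa [e' _ (by omega) (by omega)]

theorem spl (hx : P.Fr x) (i j : ℤ) (s : g • x i = x i) (t : g • x j = x j) (e : j = i + 1 ∨ j = i - 1 := by omega) :
    ∃ u t, Fm u (x i) (x j) ∧ Fa t x ∧ g = u * t := by
  have q : ∀ i, g • x i = x i → g • x (i + 1) = x (i + 1) → ∃ u t, Fm u (x i) (x (i + 1)) ∧ Fa t x ∧ g = u * t :=
    fun i s t => by
      obtain ⟨u, t, a, b, c⟩ := P.split (g := g) (P.shift i hx) (by simpa using s) (by simpa [add_comm] using t)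
      exact ⟨u, t, by simpa [add_comm] using a, fun k => by simpa using b (k - i), c⟩
  rcases e with rfl | rfl
  · exact q i s t
  · obtain ⟨u, t, a, b⟩ := q (i - 1) t (by simpa using s)
    exact ⟨u, t, by simpa using a.symm, b⟩

theorem trU (hx : P.Fr x) (a i j l c d : ℤ) (s : P.adj (x i) y) (t : y ≠ x j)
    (e : j = i - 1 ∧ l = i + 1 ∧ i - P.n ≤ a ∧ a ≤ c ∧ a ≤ d ∧ c ≤ i ∧ d ≤ i ∧ (d = c + 1 ∨ d = c - 1) := by omega) :
    ∃ u : G, Fm u (x c) (x d) ∧ Fx u x a i ∧ u • x l = y := by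
  obtain ⟨g, hg, f⟩ := stU hx a i j l s t
  obtain ⟨u, t, p, q, rfl⟩ := spl hx c d (hg.at c) (hg.at d)
  exact ⟨u, p, by simpa using hg.mul (q.fx a i).inv, by rwa [mul_smul, q] at f⟩

theorem trD (hx : P.Fr x) (a i j l c d : ℤ) (s : P.adj (x i) y) (t : y ≠ x j)
    (e : j = i + 1 ∧ l = i - 1 ∧ a ≤ i + P.n ∧ c ≤ a ∧ d ≤ a ∧ i ≤ c ∧ i ≤ d ∧ (d = c + 1 ∨ d = c - 1) := by omega) :
    ∃ u : G, Fm u (x c) (x d) ∧ Fx u x i a ∧ u • x l = y := by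
  obtain ⟨g, hg, f⟩ := stD hx a i j l s t
  obtain ⟨u, t, p, q, rfl⟩ := spl hx c d (hg.at c) (hg.at d)
  exact ⟨u, p, by simpa using hg.mul (q.fx i a).inv, by rwa [mul_smul, q] at f⟩

theorem St_le_E (hx : P.Fr x) : St G x 0 P.n ≤ E G (x 0) (x 1) := fun _ h =>
  have := P.three
  ⟨Fx.at h 0, Fx.at h 1⟩

theorem pL (hx : P.Fr x) (π : Set ℕ) {c : G} (hc : c ∈ 𝐎 π (F G (x 0) (x 1))) (m : c • x 2 ≠ x 2)
    (hg : g ∈ 𝐎 πᶜ (F G (x 0) (x 1))) (f : Fx g x 0 P.n) : g ∈ P.K (x 0) := by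
  have := P.three
  refine opD hx 0 P.n f (cen hx (X := 𝐎 πᶜ (F G (x 0) (x 1)) ⊓ St G x 0 P.n) 1 (by omega) (by omega)
    (Fm.r (O_le _ _ hc)) m inf_le_right (norm_inf ((St_le_E hx).trans ((F_normal _).O _).norm) (le_norm_self _))
    (fun g hg => mem_cent.1 (O_cent_O_compl π _ hc) g hg.1) ⟨hg, f⟩)

theorem pM (hx : P.Fr x) (π : Set ℕ) : ∃ g : G, (g ∈ 𝐎 π (F G (x 0) (x 1)) ∨ g ∈ 𝐎 πᶜ (F G (x 0) (x 1))) ∧
    Fx g x 0 P.n ∧ g • x (-1) ≠ x (-1) := by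
  have := P.three
  obtain ⟨y, s, u, v⟩ := thick hx 0 (-1) 1
  obtain ⟨g, a, b, c⟩ := trD hx P.n 0 1 (-1) 0 1 s v
  have nl : Nil (F G (x 0) (x 1) ⊓ St G x 0 P.n) := (F_nil _).mono inf_le_left
  obtain ⟨k, hk, l, hl, rfl⟩ := (nl.dprod π).sdprod.exists_mul (x := g) ⟨a, b⟩
  by_cases q : l • x (-1) = x (-1)
  · exact ⟨k, .inl ((F_nil _).O_mono_le inf_le_left _ hk), (O_le _ _ hk).2, fun r => u (by rw [← c, mul_smul, q, r])⟩
  · exact ⟨l, .inr ((F_nil _).O_mono_le inf_le_left _ hl), (O_le _ _ hl).2, q⟩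

theorem pN (hx : P.Fr x) (π : Set ℕ) {c : G} (hc : c ∈ 𝐎 π (F G (x 0) (x 1))) (m : c • x 2 ≠ x 2) :
    (∃ g ∈ 𝐎 π (F G (x 0) (x 1)), g • x (-1) ≠ x (-1)) ∧ ∀ g ∈ 𝐎 πᶜ (F G (x 0) (x 1)), g • x 2 = x 2 := by
  obtain ⟨g, a | a, b, d⟩ := pM hx π
  · exact ⟨⟨g, a, d⟩, fun u hu => by_contra fun q => d (K.up (pL hx πᶜ hu q (by rwa [O_compl_compl]) b) hx _)⟩
  · exact (d (K.up (pL hx π hc m a b) hx _)).elim

theorem K_normal (s : P.adj y z) : P.K y ⊴ E G y z :=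
  ⟨fun _ h => ⟨h.1, h.2 _ s⟩, le_norm_iff.2 fun _ u _ h => K.nm h u.1⟩

theorem pO (hx : P.Fr x) (π : Set ℕ) (h : ∀ g ∈ 𝐎 π (F G (x 0) (x 1)), g • x (-1) = x (-1)) :
    stabilizer G (x 0) ≤ 𝐍 (𝐎 π (F G (x 0) (x 1))) := by
  have le : 𝐎 π (F G (x 0) (x 1)) ≤ P.K (x 0) := fun g hg => ⟨Fm.l (O_le _ _ hg), fun z s => by
    by_cases q : z = x 1
    · exact q ▸ Fm.r (O_le _ _ hg)
    obtain ⟨u, hu, rfl⟩ := stD hx 1 0 1 (-1) s q (by have := P.three; omega)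
    exact fix_of_cj (h _ (((F_normal _).O _).conj_mem' ⟨hu.at 0, hu.at 1⟩ hg))⟩
  have e : 𝐎 π (F G (x 0) (x 1)) = 𝐎 π (𝐅 (P.K (x 0))) := by
    rw [← F_inf_normal (K_normal (ad hx 0 1)), (F_nil _).O_eq_inf inf_le_left]
    exact (inf_eq_right.2 (le_inf (O_le _ _) le)).symm
  rw [e]
  exact le_norm_O _ (le_norm_F (le_norm_iff.2 fun _ u _ h => K.nm h u))

theorem pgrp (hx : P.Fr x) : ∃ p : ℕ, p.Prime ∧ PiGrp {p} (F G (x 0) (x 1)) := by
  have := P.three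
  obtain ⟨y, s, u, v⟩ := thick hx 1 0 2
  obtain ⟨g, a, -, c⟩ := trU hx 0 1 0 2 0 1 s u
  obtain ⟨p, hp, k⟩ : ∃ p : ℕ, p.Prime ∧ ¬ 𝐎 {p} (F G (x 0) (x 1)) ≤ stabilizer G (x 2) := by
    by_contra! q
    exact v (c.symm.trans ((F_nil _).le_of_forall (fun p hp _ => q p hp) a))
  obtain ⟨c, hc, m⟩ := SetLike.not_le_iff_exists.1 k
  obtain ⟨⟨c', hc', m'⟩, f⟩ := pN hx _ hc m
  have h' := rv hx 1
  obtain ⟨-, f'⟩ := pN h' {p} (c := c') (by simpa [F_symm (x 1)] using hc') (by simpa using m')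
  have n1 := pO h' {p}ᶜ (by simpa [F_symm (x 1)] using f)
  have := P.faith hx (H := 𝐎 {p}ᶜ (F G (x 0) (x 1))) ((O_le _ _).trans (F_le _)) (pO hx {p}ᶜ (by simpa [F_symm (x 1)] using f'))
    (by simpa [F_symm (x 1)] using n1)
  refine ⟨p, hp, ?_⟩
  rw [← (Nil.dprod (H := F G (x 0) (x 1)) (F_nil _) {p}).sup]
  exact (O_pi _ _).sup (this.symm ▸ piGrp_bot _) (.inl (norm_of_cent (O_cent_O_compl _ _)))

theorem step0 (hx : P.Fr x) (k : Fm g (x 0) (x 1)) (f : g • x 2 = x 2) : Fm g (x 1) (x 2) := by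
  obtain ⟨p, hp, h⟩ := pgrp hx
  obtain ⟨v, hv⟩ := refl hx 1
  have h' : PiGrp {p} (F G (x 1) (x 2)) := by
    have := h.cj v
    rwa [cj_F', hv, hv, F_symm] at this
  let H := E G (x 0) (x 1) ⊓ stabilizer G (x 2)
  have a : g ∈ 𝐎 {p} H := le_O ((F_normal _).inf_right inf_le_left) h.inf_left ⟨k, F_le _ k, f⟩
  have le : 𝐎 {p} H ≤ E G (x 1) (x 2) := fun g hg => ⟨(O_le _ _ hg).1.2, (O_le _ _ hg).2⟩
  refine O_le_F p _ (le_O (K := 𝐎 {p} H ⊔ F G (x 1) (x 2)) ⟨sup_le le (F_le _), fun e he => ?_⟩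
    ((O_pi _ _).sup h' (.inl (le.trans (F_normal _).norm))) (mem_sup_left a))
  obtain ⟨u, t, p, q, rfl⟩ := spl hx 1 2 he.1 he.2
  exact mul_mem (le_norm_self _ (mem_sup_right p)) (norm_sup (A := Tx G x)
    (le_trans (b := H) (fun t (q : Fa t x) => ⟨⟨q 0, q 1⟩, q 2⟩) (O_normal _ H).norm)
    (le_trans (b := E G (x 1) (x 2)) (fun t (q : Fa t x) => ⟨q 1, q 2⟩) (F_normal _).norm) q)

theorem exF (hx : P.Fr x) (i : ℤ) (s : P.adj (x i) y) : ∃ x', P.Fr x' ∧ x' 0 = x i ∧ x' 1 = y := by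
  have := P.three
  by_cases q : y = x (i - 1)
  · exact ⟨_, rv hx i, by simp, q.symm⟩
  obtain ⟨x', h', e, f⟩ := exU hx i _ (i + 1) s q
  exact ⟨_, P.shift i h', by simpa using e i (by omega) le_rfl, by rwa [add_comm]⟩

theorem step (hx : P.Fr x) (i : ℤ) (s : P.adj (x i) y) (t : P.adj (x i) z) (k : Fm g (x i) y) (f : g • z = z) :
    Fm g (x i) z := by
  have := P.three
  by_cases q : z = y
  · exact q ▸ k
  obtain ⟨x', h', e, rfl⟩ := exF hx i s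
  rw [← e] at t k ⊢
  obtain ⟨x'', h'', e', rfl⟩ := exD h' 0 1 (-1) t q
  rw [← e' 0 le_rfl (by omega), ← e' 1 (by omega) (by omega)] at k
  rw [← e' 0 le_rfl (by omega)]
  simpa using step0 (g := g) (rv h'' 1) (by simpa using k.symm) (by simpa using f)

theorem move (hx : P.Fr x) {a b : ℤ} (f : Fx g x a b) {c d : ℤ} (k : Fm g (x c) (x d)) (i j : ℤ)
    (e : (d = c + 1 ∨ d = c - 1) ∧ (j = i + 1 ∨ j = i - 1) ∧ a ≤ i ∧ a ≤ j ∧ i ≤ b ∧ j ≤ b ∧ a ≤ c ∧ a ≤ d ∧ c ≤ b ∧ d ≤ b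
      := by omega) : Fm g (x i) (x j) := by
  have up : ∀ c, a ≤ c → c + 2 ≤ b → (Fm g (x c) (x (c + 1)) ↔ Fm g (x (c + 1)) (x (c + 1 + 1))) := fun c s t =>
    ⟨fun k => step hx (c + 1) (ad hx _ c) (ad hx _ _) k.symm (f.at _),
      fun k => (step hx (c + 1) (ad hx _ _) (ad hx _ c) k (f.at _)).symm⟩
  have al : ∀ m : ℕ, a + m + 1 ≤ b → (Fm g (x a) (x (a + 1)) ↔ Fm g (x (a + m)) (x (a + m + 1))) := fun m => by
    induction m with
    | zero => simp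
    | succ m ih => exact fun s => by push_cast at s ⊢; rw [ih (by omega), up _ (by omega) (by omega), add_assoc a m]
  have al' : ∀ c d, (d = c + 1 ∨ d = c - 1) → a ≤ c → a ≤ d → c ≤ b → d ≤ b →
      (Fm g (x a) (x (a + 1)) ↔ Fm g (x c) (x d)) := by
    rintro c d (rfl | rfl) s t u v
    · rw [al (c - a).toNat (by omega), show a + (c - a).toNat = c by omega]
    · rw [al (c - 1 - a).toNat (by omega), show a + (c - 1 - a).toNat = c - 1 by omega, sub_add_cancel]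
      exact ⟨Fm.symm, Fm.symm⟩
  exact (al' i j e.2.1 (by omega) (by omega) (by omega) (by omega)).1
    ((al' c d e.1 (by omega) (by omega) (by omega) (by omega)).2 k)

end SPoly
end CF.BN2
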