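import Cfsg.Agent.BN2.B

/-! Central involutions of the Fitting subgroup of an edge stabiliser. -/

set_option autoImplicit false
set_option linter.unusedSectionVars false

namespace CF.BN2
open Subgroup MulAction Cfsg CF.BG

variable {G V : Type*} [Group G] [MulAction G V]

theorem two_pow [Finite G] {r : G} (h : PiElt {2} r) (m : ℕ) (h1 : r ^ m ≠ 1) :
    ∃ j, (r ^ j) ^ m ≠ 1 ∧ (r ^ j) ^ m * (r ^ j) ^ m = 1 := by
  classical
  obtain ⟨a, ha⟩ := h.exists_pow (orderOf_pos r).ne'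
  have ex : ∃ a, (r ^ 2 ^ a) ^ m = 1 := ⟨a, by rw [← ha, pow_orderOf_eq_one, one_pow]⟩
  obtain ⟨b, hb⟩ : ∃ b, Nat.find ex = b + 1 := Nat.exists_eq_succ_of_ne_zero fun e => h1 (by simpa [e] using Nat.find_spec ex)
  refine ⟨2 ^ b, Nat.find_min ex (by omega), ?_⟩
  have := Nat.find_spec ex
  rw [hb] at this
  rw [← this, ← pow_add, ← pow_mul, ← pow_mul]; congr 1; ring

/-- central elements of order at most two -/
structure Zm (c : G) (y z : V) : Prop where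
  f : Fm c y z
  cm : ∀ u, Fm u y z → u * c = c * u
  sq : c * c = 1

section
variable [Finite G] {y z : V} {a b c g : G}

theorem Zm.symm (k : Zm c y z) : Zm c z y := ⟨k.f.symm, fun u h => k.cm u h.symm, k.sq⟩

theorem Zm.inv_eq (k : Zm c y z) : c⁻¹ = c := inv_eq_of_mul_eq_one_right k.sq

theorem Zm.cj (k : Zm c y z) (g : G) : Zm (g * c * g⁻¹) (g • y) (g • z) :=
  ⟨k.f.cj g, fun u h => by
    have := k.cm _ h.cj'
    calc u * (g * c * g⁻¹) = g * (g⁻¹ * u * g * c) * g⁻¹ := by group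
      _ = _ := by rw [this]; group, by
    calc g * c * g⁻¹ * (g * c * g⁻¹) = g * (c * c) * g⁻¹ := by group
      _ = 1 := by rw [k.sq]; group⟩

theorem Zm.nm (k : Zm c y z) (s : g • y = y) : Zm (g * c * g⁻¹) y (g • z) := by simpa [s] using k.cj g

theorem Zm.mul (k : Zm a y z) (l : Zm b y z) : Zm (a * b) y z :=
  ⟨k.f.mul l.f, fun u h => by rw [← mul_assoc, k.cm u h, mul_assoc, l.cm u h, mul_assoc], by
    rw [mul_assoc, ← mul_assoc b, k.cm b l.f, mul_assoc, l.sq, mul_one, k.sq]⟩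

theorem Zm.cj_eq (k : Zm c y z) (h : Fm g y z) : g * c * g⁻¹ = c := by rw [k.cm g h, mul_inv_cancel_right]

theorem exZ (h : PiGrp {2} (F G y z)) (n : F G y z ≠ ⊥) : ∃ c : G, c ≠ 1 ∧ Zm c y z := by
  obtain ⟨⟨c, hc⟩, c1⟩ := (ne_bot_iff_exists_ne_one).1 (h.center_ne_bot n)
  obtain ⟨j, s, t⟩ := two_pow (h.elt hc.1) 1 (by simpa using c1)
  rw [pow_one] at s t
  exact ⟨_, s, pow_mem hc.1 j, mem_cent.1 (pow_mem hc.2 j), t⟩

/-- the subgroup of the elements `Zm` -/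
def Zs (G : Type*) [Group G] [Finite G] [MulAction G V] (y z : V) : Subgroup G where
  carrier := {c | Zm c y z}
  one_mem' := ⟨one_mem _, fun u _ => by simp, by simp⟩
  mul_mem' := Zm.mul
  inv_mem' := fun {c} (h : Zm c y z) => by rw [h.inv_eq]; exact h

end

namespace SPoly
open Poly
variable [Finite G] {P : SPoly G V} {x x' : ℤ → V} {y z v w : V} {a b c d g h : G}

theorem ball0 (hx : P.Fr x) (hc : Zm c (x 0) (x 1)) (k : ℕ) (e : 2 * k < P.n) : c • x (k + 1) = x (k + 1) := by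
  have := P.three
  induction k with
  | zero => simpa using hc.f.r
  | succ k ih =>
    by_contra q
    obtain ⟨y, s, u, v⟩ := thick hx P.n (P.n - 1) (P.n + 1)
    obtain ⟨g, a, b, f⟩ := trU hx 0 P.n (P.n - 1) (P.n + 1) 0 1 s u
    exact v (f.symm.trans (K.up (cen hx (X := F G (x 0) (x 1) ⊓ St G x 0 P.n) (k + 1 : ℕ) (by omega) e
      (ih (by omega)) q inf_le_right (norm_inf ((St_le_E hx).trans (F_normal _).norm) (le_norm_self _))
      (fun g hg => hc.cm g hg.1) ⟨a, b⟩) hx _))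

theorem ball1 (hx : P.Fr x) (i l : ℤ) (hc : Zm c (x l) (x i)) (j : ℤ)
    (e : l = i - 1 ∧ i ≤ j ∧ 2 * (j - i) < P.n := by omega) : c • x j = x j := by
  obtain ⟨rfl, s, t⟩ := e
  have := ball0 (c := c) (P.shift (i - 1) hx) (by simpa using hc) (j - i).toNat (by omega)
  rwa [show ((j - i).toNat : ℤ) + 1 + (i - 1) = j by omega] at this

theorem ballU (hx : P.Fr x) (i : ℤ) (s : P.adj (x i) v) (hc : Zm c (x i) v) (j : ℤ)
    (e : i ≤ j ∧ 2 * (j - i) < P.n := by omega) : c • x j = x j := by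
  by_cases q : v = x (i + 1)
  · by_cases r : j = i
    · exact r ▸ hc.f.l
    exact ball1 hx (i + 1) i (q ▸ hc) j
  obtain ⟨x', h', e', rfl⟩ := exD hx i _ (i - 1) s q
  rw [← e' j (by omega) (by omega)]
  exact ball1 h' i (i - 1) (by rw [e' i (by omega) (by omega)]; exact hc.symm) j

theorem ball (hx : P.Fr x) (i : ℤ) (s : P.adj (x i) v) (hc : Zm c (x i) v) (j : ℤ)
    (e : 2 * (j - i) < P.n ∧ 2 * (i - j) < P.n := by omega) : c • x j = x j := by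
  by_cases q : i ≤ j
  · exact ballU hx i s hc j
  · simpa using ballU (c := c) (v := v) (P.rev hx) (-i) (by simpa using s) (by simpa using hc) (-j)

/-- from fixed balls to kernels -/
theorem K_of_ball (hx : P.Fr x) (i j r : ℤ) (f : ∀ x', P.Fr x' → x' i = x i → ∀ k, k - i ≤ r → i - k ≤ r → c • x' k = x' k)
    (e : j - i < r ∧ i - j < r ∧ r ≤ P.n) : c ∈ P.K (x j) := by
  refine ⟨f x hx rfl j (by omega) (by omega), fun w s => ?_⟩
  by_cases q : i ≤ j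
  · by_cases t : w = x (j - 1)
    · exact t ▸ f x hx rfl _ (by omega) (by omega)
    obtain ⟨x', h', e', rfl⟩ := exU hx j _ (j + 1) s t
    exact f x' h' (e' _ (by omega) q) _ (by omega) (by omega)
  · by_cases t : w = x (j + 1)
    · exact t ▸ f x hx rfl _ (by omega) (by omega)
    obtain ⟨x', h', e', rfl⟩ := exD hx j _ (j - 1) s t
    exact f x' h' (e' _ (by omega) (by omega)) _ (by omega) (by omega)

theorem ballK (hx : P.Fr x) (i : ℤ) (s : P.adj (x i) v) (hc : Zm c (x i) v) (j : ℤ)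
    (e : 2 * (j - i + 1) < P.n ∧ 2 * (i - j + 1) < P.n := by omega) : c ∈ P.K (x j) :=
  K_of_ball hx i j ((P.n - 1) / 2) (fun _ h' e k _ _ => ball h' i (e ▸ s) (e ▸ hc) k) (by omega)

theorem Zm_K (hx : P.Fr x) (i : ℤ) (s : P.adj (x i) v) (hc : Zm c (x i) v) : c ∈ P.K (x i) :=
  ballK hx i s hc i (by have := P.three; omega)

theorem Zm_F (hx : P.Fr x) (i : ℤ) (s : P.adj (x i) v) (hc : Zm c (x i) v) (t : P.adj (x i) w) : Fm c (x i) w :=
  step hx i s t hc.f ((Zm_K hx i s hc).2 _ t)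

theorem Zm_comm (hx : P.Fr x) (i : ℤ) (s : P.adj (x i) v) (ha : Zm a (x i) v) (t : P.adj (x i) w) (hb : Zm b (x i) w) :
    a * b = b * a := hb.cm a (Zm_F hx i s ha t)

theorem trV (hx : P.Fr x) (i : ℤ) (s : P.adj (x i) v) (t : P.adj (x i) w) (t' : P.adj (x i) z) (n : w ≠ v) (n' : z ≠ v) :
    ∃ u : G, Fm u (x i) v ∧ u • w = z := by
  have := P.three
  obtain ⟨x', h', e, rfl⟩ := exF hx i s
  rw [← e] at t t' ⊢
  obtain ⟨u, a, -, rfl⟩ := trD h' 1 0 1 (-1) 0 1 t n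
  obtain ⟨u', a', -, rfl⟩ := trD h' 1 0 1 (-1) 0 1 t' n'
  exact ⟨u' * u⁻¹, a'.mul a.inv, by simp [mul_smul]⟩

theorem trG (hx : P.Fr x) (i : ℤ) (s : P.adj (x i) v) (t : P.adj (x i) w) : ∃ g : G, g • x i = x i ∧ g • v = w := by
  obtain ⟨x', h', e, rfl⟩ := exF hx i s
  rw [← e] at t ⊢
  by_cases q : w = x' 1
  · exact ⟨1, one_smul _ _, by rw [one_smul, q]⟩
  obtain ⟨u, a, rfl⟩ := stD h' 1 0 1 (-1) t q (by have := P.three; omega)
  obtain ⟨r, hr⟩ := refl h' 0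
  exact ⟨u * r, by simp [mul_smul, hr, a.at 0], by simp [mul_smul, hr]⟩

variable (P) in
/-- central at the vertex `y` -/
def Zc (c : G) (y : V) : Prop := ∀ v, P.adj y v → Zm c y v

theorem Zc.cj (k : P.Zc c y) (g : G) : P.Zc (g * c * g⁻¹) (g • y) := fun v s => by
  simpa using (k (g⁻¹ • v) (inv' g (by simpa using s))).cj g

theorem Zc.nm (k : P.Zc c y) (s : g • y = y) : P.Zc (g * c * g⁻¹) y := by simpa [s] using k.cj g

theorem Zc.of_two (hx : P.Fr x) (i : ℤ) (s : P.adj (x i) v) (t : P.adj (x i) w) (n : w ≠ v) (a : Zm c (x i) v)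
    (b : Zm c (x i) w) : P.Zc c (x i) := fun z r => by
  by_cases q : z = v
  · exact q ▸ a
  obtain ⟨u, hu, rfl⟩ := trV hx i s t r n q
  simpa [a.cj_eq hu] using b.nm hu.l

theorem Zc.ball (hx : P.Fr x) (i : ℤ) (hc : P.Zc c (x i)) (j : ℤ)
    (e : 2 * (j - i) < P.n + 2 ∧ 2 * (i - j) < P.n + 2 := by omega) : c • x j = x j := by
  have := P.three
  rcases lt_trichotomy i j with q | q | q
  · exact SPoly.ball hx (i + 1) (ad hx _ i) (hc _ (ad hx _ _)).symm j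
  · exact q ▸ (hc _ (ad hx _ (i + 1))).f.l
  · exact SPoly.ball hx (i - 1) (ad hx _ i) (hc _ (ad hx _ _)).symm j

theorem Zc.K (hx : P.Fr x) (i : ℤ) (hc : P.Zc c (x i)) (j : ℤ)
    (e : 2 * (j - i) < P.n ∧ 2 * (i - j) < P.n := by omega) : c ∈ P.K (x j) :=
  K_of_ball hx i j ((P.n + 1) / 2) (fun _ h' e k _ _ => Zc.ball h' i (e ▸ hc) k) (by have := P.three; omega)

theorem Zc.fx (hx : P.Fr x) (i : ℤ) (hc : P.Zc c (x i)) (a b : ℤ)
    (e : 2 * (b - i) < P.n + 2 ∧ 2 * (i - a) < P.n + 2 := by omega) : Fx c x a b := fun k _ _ => hc.ball hx i k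

/-- frames through the same edge are conjugate under `F` -/
theorem trans (hx : P.Fr x) (h' : P.Fr x') (e0 : x' 0 = x 0) (e1 : x' 1 = x 1) :
    ∃ u : G, Fm u (x 0) (x 1) ∧ ∀ k, 0 ≤ k → k ≤ P.n + 1 → u • x k = x' k := by
  have := P.three
  have q : ∀ m : ℕ, (m : ℤ) ≤ P.n → ∃ g : G, ∀ k : ℤ, 0 ≤ k → k ≤ m + 1 → g • x k = x' k := fun m => by
    induction m with
    | zero => exact fun _ => ⟨1, fun k s t => by
        rw [one_smul]; rcases (show k = 0 ∨ k = 1 by omega) with rfl | rfl <;> simp [e0, e1]⟩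
    | succ m ih =>
      intro s
      push_cast at s ⊢
      obtain ⟨g, hg⟩ := ih (by omega)
      obtain ⟨u, a, b⟩ := stU (y := x' (m + 1 + 1)) (P.smul g hx) 0 (m + 1) m (m + 1 + 1)
        (by rw [hg _ (by omega) le_rfl]; exact ad h' _ _) (by rw [hg _ (by omega) (by omega)]; exact ne h' _ _)
      refine ⟨u * g, fun k s t => ?_⟩
      by_cases r : k = m + 1 + 1
      · rw [mul_smul, r, b]
      · rw [mul_smul, show u • g • x k = g • x k from a k s (by omega), hg k s (by omega)]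
  obtain ⟨g, hg⟩ := q P.n.toNat (by omega)
  obtain ⟨u, t, a, b, rfl⟩ := spl (g := g) hx 0 1 (by rw [hg 0 le_rfl (by omega), e0]) (by rw [hg 1 (by omega) (by omega), e1])
  exact ⟨u, a, fun k s t => by rw [← hg k s (by omega), mul_smul, b]⟩

theorem allnone (hx : P.Fr x) (hc : Zm c (x (-1)) (x 0)) (i j : ℤ) (f : c • x i = x i) (f' : c • x j = x j)
    (e : j = i - 1 ∧ 0 ≤ i ∧ i < P.n := by omega) :
    c ∈ P.K (x i) ∨ ∀ w, P.adj (x i) w → w ≠ x j → c • w ≠ w := by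
  by_contra! q
  obtain ⟨n, w, s, t, r⟩ := q
  refine n ⟨f, fun z p => ?_⟩
  by_cases o : z = x j
  · exact o ▸ f'
  obtain ⟨u, a, -, rfl⟩ := trU hx (-1) i j (i + 1) (-1) 0 s t
  obtain ⟨u', a', -, rfl⟩ := trU hx (-1) i j (i + 1) (-1) 0 p o
  simpa [mul_smul] using comm_fix (hc.cm _ (a'.mul a.inv)).symm r

variable (P) in
/-- the Fitting subgroup induces a regular group on the panel at `y` -/
def Reg (y : V) : Prop := ∀ o w (g : G), P.adj y o → P.adj y w → w ≠ o → Fm g y o → g • w = w → g ∈ P.K y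

variable (P) in
/-- the exceptional local action of degree nine -/
structure Exc (y : V) : Prop where
  two : ∀ o, P.adj y o → PiGrp {2} (F G y o)
  e1 : ∀ {o} {a b : G}, P.adj y o → Fm a y o → Fm b y o → a * a = 1 → b * b = 1 →
    (∀ w, P.adj y w → w ≠ o → a • w ≠ w) → (∀ w, P.adj y w → w ≠ o → b • w ≠ w) → a * b ∈ P.K y
  e2 : ∀ {o w} {a b : G}, P.adj y o → P.adj y w → w ≠ o → Fm a y o → Fm b y o → a • w = w → b • w = w →
    a ∉ P.K y → b ∉ P.K y → a * b ∈ P.K y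
  e3 : ∀ {o w} {a : G}, P.adj y o → P.adj y w → w ≠ o → Fm a y o → a • w = w →
    ∃ v, P.adj y v ∧ v ≠ o ∧ v ≠ w ∧ a • v = v
  e4 : ∀ {o w} {a : G}, P.adj y o → P.adj y w → w ≠ o → Fm a y o → a • w = w → a ∉ P.K y →
    ∃ v, P.adj y v ∧ v ≠ o ∧ ∀ f : G, Fm f y o → f • w = v → a * (f * a * f⁻¹) * (a * (f * a * f⁻¹)) ∉ P.K y
  e5 : ∀ a b c d : V, ∃ v, P.adj y v ∧ v ≠ a ∧ v ≠ b ∧ v ≠ c ∧ v ≠ d

theorem Reg.cj (k : P.Reg y) (g : G) : P.Reg (g • y) := fun o w u s t n a b => by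
  obtain ⟨o, rfl⟩ := MulAction.surjective g o
  obtain ⟨w, rfl⟩ := MulAction.surjective g w
  exact K.of_cj (k o w _ (inv' g s) (inv' g t) (fun e => n (e ▸ rfl)) a.cj' (cj_fix b))

theorem Reg.cj_iff (g : G) : P.Reg (g • y) ↔ P.Reg y := ⟨fun k => by simpa using k.cj g⁻¹, fun k => k.cj g⟩

theorem Reg.par (hx : P.Fr x) (i j : ℤ) (k : P.Reg (x i)) (e : (i + j) % 2 = 0 := by omega) : P.Reg (x j) := by
  obtain ⟨r, hr⟩ := refl hx ((i + j) / 2)
  simpa [hr, show 2 * ((i + j) / 2) - i = j by omega] using k.cj r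

theorem Reg.up (hx : P.Fr x) {i : ℤ} (k : P.Reg (x i)) {a b : ℤ} (f : Fx g x a b) {c d : ℤ} (m : Fm g (x c) (x d))
    (e : (d = c + 1 ∨ d = c - 1) ∧ a < i ∧ i < b ∧ a ≤ c ∧ a ≤ d ∧ c ≤ b ∧ d ≤ b := by omega) : g ∈ P.K (x i) :=
  k _ _ g (ad hx i (i - 1)) (ad hx i (i + 1)) (ne hx _ _) (move hx f m _ _) (f.at _)

/-- uniqueness of the involution in an exceptional root group -/
theorem uniq (hx : P.Fr x) {s t : ℤ} (X : P.Exc (x t)) (fa : Fx a x s t) (fb : Fx b x s t) {k l : ℤ}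
    (ma : Fm a (x k) (x l)) (mb : Fm b (x k) (x l)) (i j : ℤ) (ai : a ∈ P.K (x i)) (aj : a ∈ P.K (x j))
    (bi : b ∈ P.K (x i)) (bj : b ∈ P.K (x j)) (a2 : a * a = 1) (b2 : b * b = 1) (a1 : a ≠ 1) (b1 : b ≠ 1)
    (e : j = i + 1 ∧ t = s + P.n ∧ s ≤ i ∧ j ≤ t ∧ (l = k + 1 ∨ l = k - 1) ∧ s ≤ k ∧ s ≤ l ∧ k ≤ t ∧ l ≤ t := by omega) :
    a = b := by
  have := P.three
  have q := X.e1 (ad hx t (t - 1)) (move hx fa ma _ _) (move hx fb mb _ _) a2 b2
    (fun w p n r => a1 (oneU hx fa i j (t - 1) ai aj p n r)) fun w p n r => b1 (oneU hx fb i j (t - 1) bi bj p n r)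
  have := oneU hx (fa.mul fb) i j (t - 1) (mul_mem ai bi) (mul_mem aj bj) (ad hx t (t + 1)) (ne hx _ _) (K.up q hx _)
  rw [eq_inv_of_mul_eq_one_left this, inv_eq_of_mul_eq_one_right b2]

/-- conjugate central involutions act in the same way at an exceptional vertex -/
theorem pairU (hx : P.Fr x) (s : P.adj (x 0) v) (t : P.adj (x 0) (g • v)) (n : v ≠ x 1) (n' : g • v ≠ x 1)
    (hg : g • x 0 = x 0) (hc : Zm c (x 0) v) (k : ℤ) (X : P.Exc (x k)) (e : 1 ≤ k ∧ 2 * k < P.n := by omega) :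
    c * (g * c * g⁻¹) ∈ P.K (x k) := by
  obtain ⟨x0, h0, e0, rfl⟩ := exD hx 0 1 (-1) s n
  obtain ⟨x1, h1, e1, f1⟩ := exD hx 0 1 (-1) t n'
  have z0 : x0 0 = x 0 := e0 0 le_rfl (by omega)
  have z1 : x1 0 = x 0 := e1 0 le_rfl (by omega)
  obtain ⟨u, a, b⟩ := trans (P.shift (-1) (P.smul g h0)) (P.shift (-1) h1) (by simpa using f1) (by simp [z0, z1, hg])
  simp only [zero_add, show (1 : ℤ) + -1 = 0 by omega, z0, hg] at a
  have fu : Fx (u * g) x 0 P.n := fun j p q => by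
    have := b (j + 1) (by omega) (by omega)
    simp only [add_neg_cancel_right] at this
    rwa [e0 j p (by omega), e1 j p (by omega), ← mul_smul] at this
  have eq : g * c * g⁻¹ = u * g * c * (u * g)⁻¹ := by
    rw [← (hc.nm hg).symm.cj_eq a]; group
  have fc : Fx c x 0 k := fun j p q => ball hx 0 s hc j
  have m : Fm c (x k) (x (k - 1)) := move hx fc (Zm_F hx 0 s hc (ad hx 0 1)) _ _
  rw [eq]
  rcases allnone h0 (z0 ▸ hc.symm) k (k - 1) (by rw [e0 _ (by omega) (by omega)]; exact fc.at _)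
    (by rw [e0 _ (by omega) (by omega)]; exact fc.at _) with q | q <;> rw [e0 k (by omega) (by omega)] at q
  · exact mul_mem q (K.nm q (fu.at _))
  rw [e0 _ (by omega) (by omega)] at q
  refine X.e1 (ad hx k (k - 1)) m (m.nm (fu.at _) (fu.at _)) hc.sq (hc.cj _).sq q fun w p r o => ?_
  obtain ⟨w, rfl⟩ := MulAction.surjective (u * g) w
  exact q w (inv' (u * g) (by rwa [fu.at k])) (fun i => r (by rw [i]; exact fu.at _)) (by simpa [mul_assoc] using cj_fix o)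

theorem pair (hx : P.Fr x) (s : P.adj (x 0) v) (t : P.adj (x 0) (g • v)) (n : v ≠ x 1) (n' : g • v ≠ x 1)
    (m : v ≠ x (-1)) (m' : g • v ≠ x (-1)) (hg : g • x 0 = x 0) (hc : Zm c (x 0) v) (k : ℤ) (X : P.Exc (x k))
    (Y : P.Exc (x (-k))) (e : 1 ≤ k ∧ 2 * k < P.n := by omega) :
    c * (g * c * g⁻¹) ∈ P.K (x k) ∧ c * (g * c * g⁻¹) ∈ P.K (x (-k)) :=
  ⟨pairU hx s t n n' hg hc k X, pairU (P.rev hx) s t m m' hg hc k Y⟩

theorem fx_pair (hx : P.Fr x) (s : P.adj (x 0) v) (t : P.adj (x 0) w) (ha : Zm a (x 0) v) (hb : Zm b (x 0) w) (k : ℤ)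
    (q : a * b ∈ P.K (x k) ∧ a * b ∈ P.K (x (-k))) (e : 1 ≤ k ∧ 2 * k < P.n := by omega) :
    Fx (a * b) x (-k - 1) (k + 1) ∧ a * b ∈ P.K (x 0) ∧ a * b ∈ P.K (x 1) ∧ Fm (a * b) (x 0) (x 1) ∧
      a * b * (a * b) = 1 := by
  refine ⟨(((show Fx a x (-k) k from fun j _ _ => ball hx 0 s ha j).mul fun j _ _ => ball hx 0 t hb j).up _
    (K.up q.1 hx _)).down _ (K.up q.2 hx _), mul_mem (Zm_K hx 0 s ha) (Zm_K hx 0 t hb), ?_,
    (Zm_F hx 0 s ha (ad hx 0 1)).mul (Zm_F hx 0 t hb (ad hx 0 1)), ?_⟩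
  · by_cases r : k = 1
    · exact r ▸ q.1
    · exact mul_mem (ballK hx 0 s ha 1) (ballK hx 0 t hb 1)
  · rw [mul_assoc, ← mul_assoc b, ← Zm_comm hx 0 s ha t hb, mul_assoc, hb.sq, mul_one, ha.sq]

theorem three_eq (hx : P.Fr x) (s : P.adj (x 0) v) (t : P.adj (x 0) w) (r : P.adj (x 0) z) (ha : Zm a (x 0) v)
    (hb : Zm b (x 0) w) (hc : Zm c (x 0) z) (k : ℤ) (q : a * b ∈ P.K (x k) ∧ a * b ∈ P.K (x (-k)))
    (q' : a * c ∈ P.K (x k) ∧ a * c ∈ P.K (x (-k))) (X : P.Exc (x (k + 1)))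
    (e : 1 ≤ k ∧ 2 * k < P.n ∧ P.n ≤ 2 * k + 2 := by omega) : a = b ∨ a = c ∨ b = c := by
  obtain ⟨f1, f2, f3, f4, f5⟩ := fx_pair hx s t ha hb k q
  obtain ⟨g1, g2, g3, g4, g5⟩ := fx_pair hx s r ha hc k q'
  by_cases u : a * b = 1
  · exact .inl (by rw [eq_inv_of_mul_eq_one_left u, hb.inv_eq])
  by_cases u' : a * c = 1
  · exact .inr (.inl (by rw [eq_inv_of_mul_eq_one_left u', hc.inv_eq]))
  by_cases o : P.n = 2 * k + 2
  · exact .inr (.inr (mul_left_cancel (uniq hx X f1 g1 f4 g4 0 1 f2 f3 g2 g3 f5 g5 u u')))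
  · exact (u (one hx (ap hx f1) 0 1 f2 f3)).elim

theorem F_ne_bot (hx : P.Fr x) (i : ℤ) (s : P.adj (x i) v) : F G (x i) v ≠ ⊥ := fun e => by
  obtain ⟨x', h', e0, rfl⟩ := exF hx i s
  obtain ⟨y, a, b, c⟩ := thick h' 0 (-1) 1
  obtain ⟨u, p, -, q⟩ := trD h' 1 0 1 (-1) 0 1 a c (by have := P.three; omega)
  rw [e0, Fm, e, mem_bot] at p
  exact b (by rw [← q, p, one_smul])

theorem both_Zc (hx : P.Fr x) (X : ∀ k, P.Exc (x k)) (s : P.adj (x 0) v) (hc : Zm c (x 0) v) : P.Zc c (x 0) := by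
  have := P.three
  obtain ⟨v0, s0, a0, b0, -⟩ := (X 0).e5 (x 1) (x (-1)) v v
  obtain ⟨v1, s1, a1, b1, c1, -⟩ := (X 0).e5 (x 1) (x (-1)) v0 v0
  obtain ⟨v2, s2, a2, b2, c2, d2⟩ := (X 0).e5 (x 1) (x (-1)) v0 v1
  obtain ⟨g, hg, rfl⟩ := trG hx 0 s s0
  obtain ⟨g1, h1, rfl⟩ := trG hx 0 s0 s1
  obtain ⟨g2, h2, rfl⟩ := trG hx 0 s0 s2
  have z := hc.nm hg
  have bk : ∀ {c g : G}, g • x 0 = x 0 → P.Zc (g * c * g⁻¹) (x 0) → P.Zc c (x 0) := fun {c g} e k => by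
    simpa [mul_assoc] using k.nm (g := g⁻¹) (inv_smul_eq_iff.2 e.symm)
  refine bk hg ?_
  rcases three_eq hx s0 s1 s2 z (z.nm h1) (z.nm h2) ((P.n - 1) / 2) (pair hx s0 s1 a0 a1 b0 b1 h1 z _ (X _) (X _))
    (pair hx s0 s2 a0 a2 b0 b2 h2 z _ (X _) (X _)) (X _) with e | e | e
  · exact Zc.of_two hx 0 s0 s1 c1 z (e ▸ z.nm h1)
  · exact Zc.of_two hx 0 s0 s2 c2 z (e ▸ z.nm h2)
  · exact bk h1 (Zc.of_two hx 0 s1 s2 d2 (z.nm h1) (e ▸ z.nm h2))

/-- both types of vertices cannot be exceptional -/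
theorem both (hx : P.Fr x) (X : ∀ k, P.Exc (x k)) : False := by
  obtain ⟨c, c1, hc⟩ := exZ ((X 0).two _ (ad hx 0 1)) (F_ne_bot hx 0 (ad hx 0 1))
  have := P.faith hx (H := Zs G (x 0) (x 1)) (fun c (h : Zm c _ _) => F_le _ h.f)
    (le_norm_iff.2 fun g hg c (h : Zm c _ _) => (both_Zc hx X (ad hx 0 1) h).nm hg _ (ad hx 0 1))
    (le_norm_iff.2 fun g hg c (h : Zm c _ _) => ((both_Zc (P.shift 1 hx) (fun _ => X _) (ad hx 1 0) h.symm).nm hg _
      (ad hx 1 0)).symm)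
  exact c1 (mem_bot.1 (this ▸ (hc : c ∈ Zs G (x 0) (x 1))))

end SPoly
end CF.BN2
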