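import Cfsg.Agent.BN2.C

/-! One exceptional and one regular type of vertices. -/

set_option autoImplicit false
set_option linter.unusedSectionVars false

namespace CF.BN2
open Subgroup MulAction Cfsg CF.BG

variable {G V : Type*} [Group G] [MulAction G V]

theorem dih {a e : G} (ha : a * a = 1) (he : e * e = 1) (k : ℕ) : (a * e) ^ k * a * ((a * e) ^ k)⁻¹ = (a * e) ^ (2 * k) * a := by
  have : a * (a * e)⁻¹ = a * e * a := by
    rw [mul_inv_rev, inv_eq_of_mul_eq_one_right ha, inv_eq_of_mul_eq_one_right he, mul_assoc]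
  have q : a * ((a * e) ^ k)⁻¹ = (a * e) ^ k * a := by
    rw [← inv_pow]; exact SemiconjBy.pow_right this k
  rw [mul_assoc, q, ← mul_assoc, ← pow_add, two_mul]

namespace SPoly
open Poly
variable [Finite G] {P : SPoly G V} {x x' : ℤ → V} {y z v w : V} {a b c d g h : G}

theorem inv_cj (R : P.Reg y) (s : P.adj y v) (t : P.adj y w) (n : w ≠ v) (ha : Fm a y v) (hb : Fm b y w) (a2 : a * a = 1)
    (b2 : b * b = 1) (a1 : a ∉ P.K y) (b1 : b ∉ P.K y) : ∃ g : G, g • y = y ∧ g * a * g⁻¹ * b ∈ P.K y := by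
  classical
  have ia := inv_eq_of_mul_eq_one_right a2
  have ib := inv_eq_of_mul_eq_one_right b2
  have ex : ∃ N, 0 < N ∧ (a * b) ^ N ∈ P.K y := ⟨_, orderOf_pos _, by rw [pow_orderOf_eq_one]; exact one_mem _⟩
  have fy : ∀ k : ℕ, (a * b) ^ k • y = y := fun k => (stabilizer G y).pow_mem ((stabilizer G y).mul_mem ha.l hb.l) k
  obtain ⟨N0, hN⟩ := Nat.find_spec ex
  have fx : ∀ {a : G} {v z : V}, P.adj y v → P.adj y z → Fm a y v → a ∉ P.K y → a • z = z → z = v :=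
    fun s t m k f => by_contra fun q => k (R _ _ _ s t q m f)
  obtain ⟨k, e | e⟩ := Nat.even_or_odd' (Nat.find ex)
  · exfalso
    rw [e] at hN N0
    have nk : (a * b) ^ k ∉ P.K y := fun q => Nat.find_min ex (show k < Nat.find ex by omega) ⟨by omega, q⟩
    have sq : ∀ z, P.adj y z → ((a * b) ^ k)⁻¹ • z = (a * b) ^ k • z := fun z r => by
      rw [inv_smul_eq_iff, ← mul_smul, ← pow_add, ← two_mul, hN.2 z r]
    have c1 : a * (a * b) ^ k = ((a * b) ^ k)⁻¹ * a := by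
      rw [← inv_pow]; exact SemiconjBy.pow_right (by rw [SemiconjBy, mul_inv_rev, ia, ib, ← mul_assoc, a2, mul_assoc, a2]; simp) k
    have c2 : b * (a * b) ^ k = ((a * b) ^ k)⁻¹ * b := by
      rw [← inv_pow]; exact SemiconjBy.pow_right (by rw [SemiconjBy, mul_inv_rev, ia, ib, mul_assoc]) k
    have f1 : (a * b) ^ k • v = v := fx s (adj_fix (fy k) s) ha a1 (by rw [← mul_smul, c1, mul_smul, ha.r, sq v s])
    have f2 : (a * b) ^ k • w = w := fx t (adj_fix (fy k) t) hb b1 (by rw [← mul_smul, c2, mul_smul, hb.r, sq w t])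
    have key : ∀ {u c : G} {o : V}, u • y = y → P.adj y o → Fm c y o → c ∉ P.K y → u * c * u⁻¹ = (a * b) ^ k * a → False :=
      fun {u c o} hu r m q e => by
        have m' : Fm (u * c * u⁻¹) y (u • o) := by simpa [hu] using m.cj u
        have := fx (adj_fix hu r) s m' (fun i => q (by simpa [mul_assoc] using K.nm' i hu)) (by rw [e, mul_smul, ha.r, f1])
        rw [← this, e] at m'
        exact nk (R _ _ _ s t n (by simpa using m'.mul ha.inv) f2)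
    obtain ⟨j, rfl | rfl⟩ := Nat.even_or_odd' k
    · exact key (fy j) s ha a1 (dih a2 b2 j)
    · refine key (u := (a * b) ^ j * a) (by rw [mul_smul, ha.l, fy]) t hb b1 ?_
      have := dih a2 b2 j
      calc _ = (a * b) ^ j * (a * b) * ((a * b) ^ j)⁻¹ * ((a * b) ^ j * a * ((a * b) ^ j)⁻¹) := by
            rw [mul_inv_rev, ia]; group
        _ = _ := by
            rw [this, ← pow_succ, pow_succ', mul_inv_cancel_right, ← mul_assoc, ← pow_succ']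
  · refine ⟨_, fy k, ?_⟩
    rw [dih a2 b2, mul_assoc, ← pow_succ, ← e]
    exact hN

/-- at a regular vertex the involutions of the local root group are conjugate -/
theorem invl (hx : P.Fr x) (i : ℤ) (R : P.Reg (x i)) (s : P.adj (x i) v) (ha : Fm a (x i) v) (hb : Fm b (x i) v)
    (a2 : a * a = 1) (b2 : b * b = 1) (a1 : a ∉ P.K (x i)) (b1 : b ∉ P.K (x i)) :
    ∃ g : G, g • x i = x i ∧ g • v = v ∧ a * (g * b * g⁻¹) ∈ P.K (x i) := by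
  obtain ⟨w, t, n⟩ : ∃ w, P.adj (x i) w ∧ w ≠ v := by
    by_cases q : v = x (i + 1)
    · exact ⟨_, ad hx i (i - 1), q ▸ ne hx _ _⟩
    · exact ⟨_, ad hx i (i + 1), Ne.symm q⟩
  obtain ⟨u, hu, rfl⟩ := trG hx i s t
  have m : Fm (u * a * u⁻¹) (x i) (u • v) := by simpa [hu] using ha.cj u
  have e2 : u * a * u⁻¹ * (u * a * u⁻¹) = 1 := by
    calc _ = u * (a * a) * u⁻¹ := by group
      _ = 1 := by rw [a2]; group
  have e1 : u * a * u⁻¹ ∉ P.K (x i) := fun q => a1 (by simpa [mul_assoc] using K.nm' q hu)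
  obtain ⟨g1, h1, k1⟩ := inv_cj R s t n ha m a2 e2 a1 e1
  obtain ⟨g2, h2, k2⟩ := inv_cj R s t n hb m b2 e2 b1 e1
  have f : (g1⁻¹ * g2) • x i = x i := by rw [mul_smul, h2, inv_smul_eq_iff, h1]
  have k : a * (g1⁻¹ * g2 * b * (g1⁻¹ * g2)⁻¹) ∈ P.K (x i) := by
    have := K.nm' (mul_mem k1 (inv_mem k2)) h1
    rw [show (g2 * b * g2⁻¹ * (u * a * u⁻¹))⁻¹ = (u * a * u⁻¹)⁻¹ * (g2 * b⁻¹ * g2⁻¹) by group,
      inv_eq_of_mul_eq_one_right b2] at this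
    convert this using 1; group
  refine ⟨_, f, by_contra fun q => b1 ?_, k⟩
  have := R _ v _ (adj_fix f s) s (Ne.symm q) (by simpa only [f] using hb.cj (g1⁻¹ * g2))
    (MulAction.injective a (by simpa only [← mul_smul, ha.r] using k.2 v s))
  simpa [mul_assoc] using K.nm' this f

variable (P) in
structure Two (x : ℤ → V) : Prop where
  fr : P.Fr x
  odd : ∀ k, (e : k % 2 = 1 := by omega) → P.Reg (x k)
  ev : ∀ k, (e : k % 2 = 0 := by omega) → P.Exc (x k)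
  nr : ∀ k, (e : k % 2 = 0 := by omega) → ¬ P.Reg (x k)

variable (P) in
structure Gl : Prop where
  alt : ∀ {x : ℤ → V} (i : ℤ), P.Fr x → ¬ P.Reg (x i) → i % 2 = 0 → P.Two x
  D : ∀ {x : ℤ → V}, P.Fr x → ∃ d : G, d ≠ 1 ∧ Fm d (x 0) (x 1) ∧ Fa d x

variable (P) in
structure Dd (x : ℤ → V) (d : G) : Prop where
  fa : Fa d x
  fm : Fm d (x 0) (x 1)
  odd : ∀ k, (e : k % 2 = 1 := by omega) → d ∈ P.K (x k)
  ev : ∀ k, (e : k % 2 = 0 := by omega) → d ∉ P.K (x k)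
  sq : d * d = 1

theorem Dd.m (D : P.Dd x d) (hx : P.Fr x) (i j : ℤ) (e : j = i + 1 ∨ j = i - 1 := by omega) : Fm d (x i) (x j) :=
  move hx (D.fa.fx (min (min i j) 0) (max (max i j) 1)) D.fm i j

theorem Dd.inv_eq (D : P.Dd x d) : d⁻¹ = d := inv_eq_of_mul_eq_one_right D.sq

theorem Gl.dd (L : P.Gl) (T : P.Two x) : P.n % 2 = 0 ∧ ∃ d, P.Dd x d := by
  obtain ⟨d, d1, m, f⟩ := L.D T.fr
  have o : ∀ k, k % 2 = 1 → d ∈ P.K (x k) := fun k e => (T.odd k).up T.fr (f.fx (min (k - 1) 0) (max (k + 1) 1)) m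
  have e : ∀ k, k % 2 = 0 → d ∉ P.K (x k) := fun k e q => d1 (one T.fr f k (k + 1) q (o _ (by omega)))
  refine ⟨by_contra fun q => e 0 rfl (opD T.fr 0 P.n (f.fx _ _) (o _ (by omega))), d, f, m, o, e, ?_⟩
  exact one T.fr (f.mul f) 0 1 ((T.ev 0).e2 (ad T.fr 0 1) (ad T.fr 0 (-1)) (ne T.fr _ _) m m (f _) (f _) (e 0 rfl) (e 0 rfl))
    (mul_mem (o 1 rfl) (o 1 rfl))

theorem Two.shift (T : P.Two x) (c : ℤ) (e : c % 2 = 0 := by omega) : P.Two fun k => x (k + c) :=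
  ⟨P.shift c T.fr, fun _ _ => T.odd _, fun _ _ => T.ev _, fun _ _ => T.nr _⟩

theorem Two.rev (T : P.Two x) : P.Two fun k => x (-k) :=
  ⟨P.rev T.fr, fun _ _ => T.odd _, fun _ _ => T.ev _, fun _ _ => T.nr _⟩

theorem Dd.rev (D : P.Dd x d) (hx : P.Fr x) : P.Dd (fun k => x (-k)) d :=
  ⟨fun _ => D.fa _, D.m hx _ _, fun _ _ => D.odd _, fun _ _ => D.ev _, D.sq⟩

theorem Dd.mv (D : P.Dd x d) : ∃ v, P.adj (x 0) v ∧ d • v ≠ v := by
  by_contra! q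
  exact D.ev 0 rfl ⟨D.fa 0, q⟩

theorem cm_K (k : d ∈ P.K y) (f : a • y = y) : a * (d * a⁻¹ * d⁻¹) ∈ P.K y := by
  simpa [mul_assoc] using mul_mem (K.nm k f) (inv_mem k)

theorem Zc_ex (L : P.Gl) (T : P.Two x) : ∃ c : G, c ≠ 1 ∧ P.Zc c (x 0) := by
  have := P.three
  have hx := T.fr
  obtain ⟨n2, d, D⟩ := L.dd T
  by_contra! H
  have H2 : ∀ {c : G} {v w : V}, P.adj (x 0) v → P.adj (x 0) w → w ≠ v → Zm c (x 0) v → Zm c (x 0) w → c = 1 :=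
    fun s t n a b => by_contra fun q => H _ q (Zc.of_two hx 0 s t n a b)
  have ex : ∀ {v}, P.adj (x 0) v → ∃ c : G, c ≠ 1 ∧ Zm c (x 0) v := fun s => exZ ((T.ev 0).two _ s) (F_ne_bot hx 0 s)
  obtain ⟨v, s, dv⟩ := D.mv
  have t := adj_fix (D.fa 0) s
  have fd : ∀ {c : G}, Zm c (x 0) v → d * c * d⁻¹ = c → c = 1 := fun a e => H2 s t dv a (e ▸ a.nm (D.fa 0))
  obtain ⟨k, hk⟩ : ∃ k, P.n = 2 * k + 2 := ⟨P.n / 2 - 1, by omega⟩
  by_cases o : k % 2 = 1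
  · have un0 : ∀ {a b : G}, Zm a (x 0) v → Zm b (x 0) v → a ≠ 1 → b ≠ 1 → a = b := fun {a b} ha hb a1 b1 => by
      have q : ∀ {a : G}, Zm a (x 0) v → a * (d * a * d⁻¹) ∈ P.K (x k) ∧ a * (d * a * d⁻¹) ∈ P.K (x (-k)) := fun {a} ha =>
        ⟨by simpa [ha.inv_eq] using cm_K (D.odd k) (ball hx 0 s ha k),
          by simpa [ha.inv_eq] using cm_K (D.odd (-k)) (ball hx 0 s ha (-k))⟩
      have n1 : ∀ {a : G}, Zm a (x 0) v → a ≠ 1 → a * (d * a * d⁻¹) ≠ 1 := fun {a} ha a1 e =>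
        a1 (fd ha (by rw [eq_inv_of_mul_eq_one_right e, ha.inv_eq]))
      obtain ⟨f1, f2, f3, f4, f5⟩ := fx_pair hx s t ha (ha.nm (D.fa 0)) k (q ha)
      obtain ⟨g1, g2, g3, g4, g5⟩ := fx_pair hx s t hb (hb.nm (D.fa 0)) k (q hb)
      have := uniq hx (T.ev (k + 1)) f1 g1 f4 g4 0 1 f2 f3 g2 g3 f5 g5 (n1 ha a1) (n1 hb b1)
      have e : b * a = 1 := fd (hb.mul ha) (by
        calc d * (b * a) * d⁻¹ = (d * b * d⁻¹) * (d * a * d⁻¹) := by group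
          _ = (b⁻¹ * (a * (d * a * d⁻¹))) * (d * a * d⁻¹) := by rw [this]; group
          _ = b * a := by rw [hb.inv_eq, mul_assoc, mul_assoc, (ha.cj d).sq, mul_one])
      rw [eq_inv_of_mul_eq_one_right e, hb.inv_eq]
    have un : ∀ {w} {a b : G}, P.adj (x 0) w → Zm a (x 0) w → Zm b (x 0) w → a ≠ 1 → b ≠ 1 → a = b :=
      fun {w a b} r ha hb a1 b1 => by
        obtain ⟨g, hg, rfl⟩ := trG hx 0 r s
        simpa using un0 (ha.nm hg) (hb.nm hg) (by simpa using a1) (by simpa using b1)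
    have pr : ∀ {x'}, P.Two x' → x' 0 = x 0 → ∀ {v w} {a b : G}, P.adj (x 0) v → P.adj (x 0) w → v ≠ x' 1 → w ≠ x' 1 →
        Zm a (x 0) v → Zm b (x 0) w → a ≠ 1 → b ≠ 1 → a * b ∈ P.K (x' k) := fun {x'} T' e v w a b s t p q ha hb a1 b1 => by
      rw [← e] at s t ha hb un
      obtain ⟨u, a2, a3, rfl⟩ := trD T'.fr P.n 0 1 (-1) 0 1 s p
      obtain ⟨u', b2, b3, rfl⟩ := trD T'.fr P.n 0 1 (-1) 0 1 t q
      have fu := b3.mul a3.inv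
      rw [un t hb (by simpa [mul_smul] using ha.nm (fu.at 0)) b1 (fun e => a1 (conj_eq_one_iff.1 (show u' * u⁻¹ * a * (u' * u⁻¹)⁻¹ = 1 by simpa using e)))]
      simpa [ha.inv_eq] using cm_K ((T'.odd k).up T'.fr fu (b2.mul a2.inv)) (ball T'.fr 0 s ha k)
    obtain ⟨v0, s0, a0, b0, -⟩ := (T.ev 0).e5 (x 1) (x (-1)) v v
    obtain ⟨v1, s1, a1, b1, c1, -⟩ := (T.ev 0).e5 (x 1) (x (-1)) v0 v0
    obtain ⟨v2, s2, a2, b2, c2, d2⟩ := (T.ev 0).e5 (x 1) (x (-1)) v0 v1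
    obtain ⟨z0, n0, h0⟩ := ex s0
    obtain ⟨z1, n1, h1⟩ := ex s1
    obtain ⟨z2, n2, h2⟩ := ex s2
    rcases three_eq hx s0 s1 s2 h0 h1 h2 k ⟨pr T rfl s0 s1 a0 a1 h0 h1 n0 n1, pr T.rev rfl s0 s1 b0 b1 h0 h1 n0 n1⟩
      ⟨pr T rfl s0 s2 a0 a2 h0 h2 n0 n2, pr T.rev rfl s0 s2 b0 b2 h0 h2 n0 n2⟩ (T.ev _) with e | e | e
    · exact n0 (H2 s0 s1 c1 h0 (e ▸ h1))
    · exact n0 (H2 s0 s2 c2 h0 (e ▸ h2))
    · exact n1 (H2 s1 s2 d2 h1 (e ▸ h2))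
  obtain ⟨w, r, w1, w2, dw⟩ := (T.ev 0).e3 (ad hx 0 1) (ad hx 0 (-1)) (ne hx _ _) D.fm (D.fa _)
  obtain ⟨c, c1, hc⟩ := ex r
  obtain ⟨g, hg, rfl⟩ := trG hx 0 r s
  obtain ⟨f1, f2, f3, -, -⟩ := fx_pair hx r s hc (hc.nm hg) k (pair hx r s w1 (fun e => dv (e ▸ D.fa _)) w2
    (fun e => dv (e ▸ D.fa _)) hg hc k (T.ev k) (T.ev _))
  have k1 := cm_K (D.odd (k + 1)) (f1.at (k + 1))
  have := oneU hx (f1.mul (((D.fa.fx _ _).mul f1.inv).mul (D.fa.fx _ _).inv)) 0 1 k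
    (mul_mem f2 (K.nm (inv_mem f2) (D.fa _))) (mul_mem f3 (K.nm (inv_mem f3) (D.fa _))) (ad hx _ (k + 2)) (ne hx _ _)
    (K.up k1 hx _)
  have e := hc.cj_eq (step hx 0 (ad hx 0 1) r D.fm dw)
  refine c1 (conj_eq_one_iff.1 (fd (hc.nm hg) (mul_left_cancel (a := c) ?_)))
  calc c * (d * (g * c * g⁻¹) * d⁻¹) = (d * (c * (g * c * g⁻¹))⁻¹ * d⁻¹)⁻¹ := by nth_rw 1 [← e]; group
    _ = _ := by rw [← eq_inv_of_mul_eq_one_left this]

theorem Zc_at (L : P.Gl) (T : P.Two x) (i : ℤ) (e : i % 2 = 0 := by omega) : ∃ c : G, c ≠ 1 ∧ P.Zc c (x i) := by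
  simpa using Zc_ex L (T.shift i)

theorem exr (T : P.Two x) (D : P.Dd x d) (n2 : P.n % 2 = 0) : ∃ r : G, Fm r (x 0) (x 1) ∧ Fx r x 0 P.n ∧
    (∀ k, 0 < k → k < P.n → r ∈ P.K (x k)) ∧ r * r ≠ 1 ∧ r * r * (r * r) = 1 ∧ d * r * d⁻¹ = r⁻¹ := by
  have := P.three
  have hx := T.fr
  obtain ⟨v, s, n, h⟩ := (T.ev 0).e4 (ad hx 0 1) (ad hx 0 (-1)) (ne hx _ _) D.fm (D.fa _) (D.ev 0)
  obtain ⟨f, a, b, c⟩ := trD hx P.n 0 1 (-1) 0 1 s n
  have b' : Fx (f * d * f⁻¹) x 0 P.n := (b.mul (D.fa.fx _ _)).mul b.inv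
  have a' : Fm (f * d * f⁻¹) (x 0) (x 1) := D.fm.nm a.l a.r
  obtain ⟨j, p, q⟩ := two_pow (((T.ev 0).two _ (ad hx 0 1)).elt (D.fm.mul a')) 2
    (fun e => h f a c (by rw [← sq, e]; exact one_mem _))
  refine ⟨_, (D.fm.mul a').pow j, (St G x 0 P.n).pow_mem ((D.fa.fx _ _).mul b') j, fun k s t => pow_mem ?_ j,
    by rwa [← sq], by rwa [sq] at q, ?_⟩
  · by_cases o : k % 2 = 1
    · exact (T.odd k).up hx ((D.fa.fx _ _).mul b') (D.fm.mul a')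
    · exact (T.ev k).e2 (ad hx k (k - 1)) (ad hx k (k + 1)) (ne hx _ _) (D.m hx _ _) (move hx b' a' _ _) (D.fa _) (b'.at _)
        (D.ev k) fun i => D.ev k (by omega) (by simpa [mul_assoc] using K.nm' i (b.at k))
  · rw [← conj_pow, ← inv_pow]; congr 1
    rw [← mul_assoc, D.sq, one_mul]
    nth_rw 1 [← D.inv_eq]
    group

theorem m2 (L : P.Gl) (T : P.Two x) (n : P.n = 4) : False := by
  have hx := T.fr
  obtain ⟨n2, d, D⟩ := L.dd T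
  obtain ⟨r, r0, r1, r2, r3, r4, r5⟩ := exr T D n2
  rw [n] at r1 r2
  obtain ⟨z, z1, hz⟩ := Zc_at L T 2
  have zm := hz _ (ad hx 2 3)
  have z3 : z ∈ P.K (x 3) := hz.K hx 2 3
  have e : r * r = z := uniq hx (T.ev 4) (r1.mul r1) (hz.fx hx 2 0 4) (move hx (r1.mul r1) (r0.mul r0) 2 3) zm.f 2 3
    (mul_mem (r2 2 (by omega) (by omega)) (r2 2 (by omega) (by omega)))
    (mul_mem (r2 3 (by omega) (by omega)) (r2 3 (by omega) (by omega))) (hz.K hx 2 2) z3 r4 zm.sq r3 z1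
  obtain ⟨u, u0, u1, u2, u3⟩ : ∃ u : G, Fm u (x 3) (x 4) ∧ Fx u x 3 7 ∧ u • x 2 ≠ x 2 ∧ u ∈ P.K (x 4) := by
    obtain ⟨y, s, p, q⟩ := thick hx 3 2 4
    obtain ⟨u, a, b, rfl⟩ := trD hx 7 3 4 2 3 4 s q
    by_cases k : u ∈ P.K (x 4)
    · exact ⟨u, a, b, p, k⟩
    · exact ⟨u * d, a.mul (D.m hx _ _), b.mul (D.fa.fx _ _), by rwa [mul_smul, D.fa],
        (T.ev 4).e2 (ad hx 4 3) (ad hx 4 5) (ne hx _ _) a.symm (D.m hx _ _) (b.at _) (D.fa _) k (D.ev 4)⟩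
  have u5 : u ∈ P.K (x 5) := (T.odd 5).up hx u1 u0
  have k3 := cm_K (D.odd 3) (u1.at 3)
  have ud : u * (d * u⁻¹ * d⁻¹) = 1 := oneD hx (u1.mul (((D.fa.fx _ _).mul u1.inv).mul (D.fa.fx _ _).inv)) 3 4 4 k3
    (mul_mem u3 (K.nm (inv_mem u3) (D.fa _))) (ad hx 3 2) (ne hx _ _) (K.up k3 hx _)
  have ud' : d * u⁻¹ * d⁻¹ = u⁻¹ := eq_inv_of_mul_eq_one_right ud
  have k4 : r⁻¹ * (u⁻¹ * r * u) ∈ P.K (x 4) := by
    simpa [mul_assoc] using mul_mem (K.nm' (inv_mem u3) (r1.at 4)) u3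
  have k5 := cm_K (D.odd 5) (K.up (inv_mem k4) hx 5)
  have c : u⁻¹ * r * u * z = z * (u⁻¹ * r * u) := zm.cm _ (step hx 3 (ad hx 3 4) (ad hx 3 2)
    ((move hx r1 r0 3 4).nm' (u1.at _) (u1.at _)) (K.up (K.nm' (r2 3 (by omega) (by omega)) (u1.at 3)) hx 2)).symm
  have k6 : z * u⁻¹ * z⁻¹ * u ∈ P.K (x 5) := by
    convert k5 using 1
    have du : d * u * d⁻¹ = u := by rw [← inv_inj, ← ud']; group
    calc _ = z * (u⁻¹ * r * u)⁻¹ * (u⁻¹ * r * u)⁻¹ := by rw [← e]; group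
      _ = (u⁻¹ * r * u)⁻¹ * z * (u⁻¹ * r * u)⁻¹ := by
        congr 1; rw [mul_inv_eq_iff_eq_mul, mul_assoc, ← c]; group
      _ = (u⁻¹ * r * u)⁻¹ * r * ((d * r * d⁻¹)⁻¹ * ((d * u⁻¹ * d⁻¹) * (d * r * d⁻¹) * (d * u * d⁻¹))) := by
        rw [r5, ud', du, ← e]; group
      _ = _ := by group
  have k7 : u ∈ P.K (z⁻¹ • x 5) := K.of_cj (by simpa [mul_assoc] using inv_mem (mul_mem k6 (inv_mem u5)))
  have s : P.adj (x 4) (z⁻¹ • x 5) := adj_fix ((hz.fx hx 2 0 4).inv.at 4) (ad hx 4 5)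
  obtain ⟨x', h', e', f'⟩ := exD hx 4 5 3 s fun q => z1 (oneU hx (hz.fx hx 2 0 4) 2 3 3 (hz.K hx 2 2) z3 (ad hx 4 5)
    (ne hx _ _) (inv_smul_eq_iff.1 q).symm)
  rw [← f'] at k7
  have := oneD h' (((u1.mono (c := 4) (d := 7)).congr fun k s t => e' k s (by omega)).down 3 k7.1) 4 5 4
    (by rwa [e' 4 (by omega) (by omega)]) (by rwa [e' 5 (by omega) (by omega)]) (ad h' 3 2) (ne h' _ _) (K.up k7 h' _)
  exact u2 (by rw [this, one_smul])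

end SPoly
end CF.BN2
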