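import Cfsg.Agent.BN2.D

/-! Hexagons and octagons; the Fitting subgroup of an edge stabiliser meets the apartment stabiliser trivially. -/

set_option autoImplicit false
set_option linter.unusedSectionVars false

namespace CF.BN2
open Subgroup MulAction Cfsg CF.BG

variable {G V : Type*} [Group G] [MulAction G V]

namespace SPoly
open Poly
variable [Finite G] {P : SPoly G V} {x x' : ℤ → V} {y z v w : V} {a b c d g h : G}

theorem m4a (hx : P.Fr x) (n : P.n = 8) (s : P.adj (x 0) v) (p : v ≠ x 1) (t : P.adj v w) (q : w ≠ x 0) (hc : P.Zc c w)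
    (c1 : c ≠ 1) : Fx c x 0 2 ∧ Fm c (x 2) (x 1) ∧ c ∈ P.K (x 0) ∧ c ∈ P.K (x 1) ∧ c * c = 1 ∧
      ∀ t, P.adj (x 2) t → t ≠ x 1 → c • t ≠ t := by
  obtain ⟨x', h', e', rfl⟩ := exD hx 0 1 (-1) s p
  obtain ⟨y, h, e, rfl⟩ := exD h' (-1) 0 (-2) t (by rwa [e' 0 (by omega) (by omega)])
  have o : ∀ k, 0 ≤ k → k ≤ 2 → x k = y k := fun k s t => by rw [e k (by omega) (by omega), e' k s (by omega)]
  have f := hc.fx h (-2) (-6) 2
  refine ⟨f.mono.congr o, ?_⟩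
  rw [o 0 (by omega) (by omega), o 1 (by omega) (by omega), o 2 (by omega) (by omega)]
  exact ⟨move h f (hc _ (ad h _ (-1))).f _ _, hc.K h _ _, hc.K h _ _, (hc _ (ad h _ (-1))).sq,
    fun t a b c => c1 (oneU h f 0 1 1 (hc.K h _ _) (hc.K h _ _) a b c)⟩

theorem m4 (L : P.Gl) (T : P.Two x) (n : P.n = 8) : False := by
  have hx := T.fr
  obtain ⟨-, d, D⟩ := L.dd T
  obtain ⟨v, s, dv⟩ := D.mv
  obtain ⟨w, r, w1, w2, dw⟩ := (T.ev 0).e3 (ad hx 0 1) (ad hx 0 (-1)) (ne hx _ _) D.fm (D.fa _)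
  have dk : d ∈ P.K w := by
    obtain ⟨y, h, e, rfl⟩ := exD hx 0 1 (-1) r w1
    exact opD h (-1) 7 (((D.fa.fx 0 7).congr fun k s t => e k s (by omega)).down _ dw)
      (by rw [e 7 (by omega) (by omega)]; exact D.odd 7)
  obtain ⟨X, hX, X0, rfl⟩ := exF hx 0 s
  obtain ⟨Y, hY, Y0, rfl⟩ := exF hx 0 r
  obtain ⟨c, c1, hc⟩ := Zc_at L (L.alt 0 hX (X0 ▸ T.nr 0) rfl) 2
  obtain ⟨e, e1, he⟩ := Zc_at L (L.alt 0 hY (Y0 ▸ T.nr 0) rfl) 2
  have de : d * e = e * d := (he _ (ad hY 2 1)).cm d (step hY 1 (ad hY 1 0) (ad hY 1 2)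
    (Y0 ▸ step hx 0 (ad hx 0 1) r D.fm dw).symm (K.up dk hY 2)).symm
  have q : ∀ {x}, P.Two x → x 0 = X 0 → X 1 ≠ x 1 → Y 1 ≠ x 1 → Fx (c * e) x 0 3 ∧ Fm (c * e) (x 0) (x 1) ∧
      c * e ∈ P.K (x 0) ∧ c * e ∈ P.K (x 1) := fun {x} T o p p' => by
    obtain ⟨a1, a2, a3, a4, a5, a6⟩ := m4a T.fr n (o ▸ ad hX 0 1) p (ad hX 1 2) (o ▸ ne hX 2 0) hc c1
    obtain ⟨b1, b2, b3, b4, b5, b6⟩ := m4a T.fr n (by rw [o, X0, ← Y0]; exact ad hY 0 1) p' (ad hY 1 2)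
      (by rw [o, X0, ← Y0]; exact ne hY 2 0) he e1
    exact ⟨(a1.mul b1).up 3 (K.up ((T.ev 2).e1 (ad T.fr 2 1) a2 b2 a5 b5 a6 b6) T.fr 3),
      move T.fr (a1.mul b1) (a2.mul b2) _ _, mul_mem a3 b3, mul_mem a4 b4⟩
  obtain ⟨a1, a2, a3, a4⟩ := q T X0.symm (fun e => dv (e ▸ D.fa _)) w1
  obtain ⟨b1, -⟩ := q T.rev X0.symm (fun e => dv (e ▸ D.fa _)) w2
  have f : Fx (c * e) x (-3) 3 := fun k s t => by
    by_cases o : 0 ≤ k
    · exact a1.at k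
    · simpa using b1.at (-k)
  have cm := hc _ (ad hX 2 1)
  have eq : c * e * (d * (c * e)⁻¹ * d⁻¹) = c * (d * c * d⁻¹) := by
    rw [mul_inv_rev, cm.inv_eq, ← mul_assoc d, mul_assoc c, ← mul_assoc e, ← mul_assoc e, ← mul_assoc e, ← de,
      mul_inv_cancel_right]
  have f' : Fx (c * e * (d * (c * e)⁻¹ * d⁻¹)) x (-4) 4 :=
    ((f.mul (((D.fa.fx _ _).mul f.inv).mul (D.fa.fx _ _).inv)).up 4 (K.up (cm_K (D.odd 3) (f.at 3)) hx 4)).down _
      (K.up (cm_K (D.odd (-3)) (f.at _)) hx _)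
  have d0 : d • X 0 = X 0 := X0 ▸ D.fa 0
  obtain ⟨-, g2, -, -, g5, g6⟩ := m4a hX n (adj_fix d0 (ad hX 0 1)) dv (P.inv d (ad hX 1 2))
    (fun o => ne hX 2 0 (by omega) (MulAction.injective d (o.trans d0.symm))) (hc.cj d) (by simpa using c1)
  have k : c * e * (d * (c * e)⁻¹ * d⁻¹) ∈ P.K (X 2) := by
    by_cases o : c * e * (d * (c * e)⁻¹ * d⁻¹) = 1
    · exact o ▸ one_mem _
    obtain ⟨z, z1, hz⟩ := Zc_at L T 0
    rw [uniq hx (T.ev 4) f' (hz.fx hx 0 (-4) 4) (a2.mul (a2.inv.nm (D.fa _) (D.fa _))) (hz _ (ad hx 0 1)).f 0 1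
      (mul_mem a3 (K.nm (inv_mem a3) (D.fa _))) (mul_mem a4 (K.nm (inv_mem a4) (D.fa _))) (hz.K hx 0 0) (hz.K hx 0 1)
      (by rw [eq, mul_assoc, ← mul_assoc (d * c * d⁻¹), cm.cm _ g2, mul_assoc c, g5, mul_one, cm.sq])
      (hz _ (ad hx 0 1)).sq o z1]
    exact Zc.K hX 0 (X0 ▸ hz) 2
  rw [eq] at k
  exact g6 _ (ad hX 2 3) (ne hX _ _) (K.up ((mul_mem_cancel_left (hc.K hX 2 2)).1 k) hX 3)

theorem Zc.K2 (hx : P.Fr x) (n : P.n = 6) (i j : ℤ) (hc : P.Zc c (x i)) (s : P.adj (x j) w) (e : j = i + 1 := by omega) :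
    c ∈ P.K w := by
  by_cases q : w = x i
  · exact q ▸ hc.K hx i i
  obtain ⟨y, h, e, rfl⟩ := exU hx j i (j + 1) s q
  exact Zc.K h i (by rwa [e i (by omega) (by omega)]) _

theorem m3b (hx : P.Fr x) (n : P.n = 6) (ha : P.Zc a (x 4)) (hb : P.Zc b (x 8)) : Fx (a * b * (a * b)) x 3 7 := by
  have e : a * b * (a * b) = a * (b⁻¹ * a * b) := by rw [(hb _ (ad hx 8 9)).inv_eq]; group
  have s : P.adj (x 5) (b • x 4) := adj_fix (hb.ball hx 8 5) (ad hx 5 4)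
  have k := ha.K2 hx n 4 5 s
  have f := (ha.fx hx 4 5 7).mul (hb.fx hx 8 5 7)
  refine ((f.mul f).down 4 ?_).down 3 ?_
  · rw [e, mul_smul, cj_fix k.1, ha.ball hx 4 4]
  · rw [e, mul_smul, cj_fix (k.2 _ (P.inv b (ad hx 4 3))), ha.ball hx 4 3]

theorem m3a (L : P.Gl) (T : P.Two x) (n : P.n = 6) (ha : P.Zc a (x 4)) (hb : P.Zc b (x 8)) :
    a * b * (a * b) = 1 ∨ P.Zc (a * b * (a * b)) (x 6) := by
  have hx := T.fr
  have am := ha _ (ad hx 4 5)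
  have bm := hb _ (ad hx 8 7)
  have f1 := m3b hx n ha hb
  have f2 := (m3b (rv hx 12) n hb ha).inv
  have e : (b * a * (b * a))⁻¹ = a * b * (a * b) := by simp only [mul_inv_rev, am.inv_eq, bm.inv_eq]
  rw [e] at f2
  have f : Fx (a * b * (a * b)) x 3 9 := fun k s t => by
    by_cases o : k ≤ 7
    · exact f1.at k
    · simpa using f2.at (12 - k)
  have k6 := mul_mem (ha.K hx 4 6) (hb.K hx 8 6)
  replace k6 := mul_mem k6 k6
  have k7 : a * b * (a * b) ∈ P.K (x 7) := by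
    simpa [am.inv_eq, mul_assoc] using mul_mem (K.nm (hb.K hx 8 7) (ha.ball hx 4 7)) (hb.K hx 8 7)
  have m := (move hx (ha.fx hx 4 1 7) am.f 6 7).mul (move hx (hb.fx hx 8 5 11) bm.f 6 7)
  replace m := m.mul m
  have sq : a * b * (a * b) * (a * b * (a * b)) = 1 := by
    have := bm.cm _ (move hx f m 8 7)
    nth_rw 2 [← e]
    rw [mul_inv_eq_one, ← mul_left_inj b, this]
    simp only [mul_assoc]
  by_cases o : a * b * (a * b) = 1
  · exact .inl o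
  generalize a * b * (a * b) = h at *
  obtain ⟨z, z1, hz⟩ := Zc_at L T 6
  have zm := hz _ (ad hx 6 7)
  have zf := hz.fx hx 6 3 9
  obtain ⟨g, g9, g8, k⟩ := invl hx 9 (T.odd 9) (ad hx 9 8) (move hx f m _ _) (move hx zf zm.f _ _) sq zm.sq
    (fun q => o (oneU hx f 6 7 8 k6 k7 (ad hx 9 10) (ne hx _ _) (K.up q hx _)))
    (fun q => z1 (oneU hx zf 6 7 8 (hz.K hx 6 6) (hz.K hx 6 7) (ad hx 9 10) (ne hx _ _) (K.up q hx _)))
  obtain ⟨u, -, u1, u2⟩ := trU hx 3 9 8 10 8 9 (adj_fix g9 (ad hx 9 10))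
    fun q => ne hx 10 8 (by omega) (MulAction.injective g (q.trans g8.symm))
  obtain ⟨u', t, p, q, r⟩ := spl (g := u⁻¹ * g) hx 9 8 (by rw [mul_smul, g9, u1.inv.at 9]) (by rw [mul_smul, g8, u1.inv.at 8])
  have uk : u' ∈ P.K (x 9) := T.odd 9 (by omega) _ _ _ (ad hx 9 8) (ad hx 9 10) (ne hx _ _) p (by
    rw [← q 10, ← mul_smul, ← r, mul_smul, ← u2, inv_smul_smul, q])
  have ft := u1.mul (q.fx 3 9)
  have z' := hz.nm (ft.at 6)
  have ff := (ft.mul zf).mul ft.inv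
  have k' : h * (u * t * z * (u * t)⁻¹) ∈ P.K (x 9) := by
    have eg : g = u * (u' * t) := by rw [← r]; group
    have := mul_mem (mul_mem (inv_mem (K.nm (K.nm uk (u1.at 9)) (f.at 9))) k) (K.nm uk (u1.at 9))
    convert this using 1
    rw [eg]; group
  have := oneU hx (f.mul ff) 6 7 8 (mul_mem k6 (z'.K hx 6 6)) (mul_mem k7 (z'.K hx 6 7)) (ad hx 9 10) (ne hx _ _) (K.up k' hx _)
  rw [eq_inv_of_mul_eq_one_left this, (z' _ (ad hx 6 7)).inv_eq]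
  exact .inr z'

theorem m3 (L : P.Gl) (T : P.Two x) (n : P.n = 6) : False := by
  have hx := T.fr
  obtain ⟨n2, d, D⟩ := L.dd T
  obtain ⟨r, -, r1, r2, r3, -, -⟩ := exr T D n2
  rw [n] at r1 r2
  obtain ⟨c, c1, hc⟩ := Zc_at L T 8
  have cm := hc _ (ad hx 8 9)
  have r7 : r⁻¹ • x 7 ≠ x 7 := fun q => r3 (by
    rw [oneU hx r1 1 2 5 (r2 1 (by omega) (by omega)) (r2 2 (by omega) (by omega)) (ad hx 6 7) (ne hx _ _)
      (inv_smul_eq_iff.1 q).symm, one_mul])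
  obtain ⟨y, h, e⟩ := path hx (fun j => if j ≤ 6 then r⁻¹ • x (12 - j) else x j) 6 9 (by omega)
    (fun j u v => by
      split_ifs with q
      · rw [show j = 6 by omega]; exact r1.inv.at 6
      · rfl) 2 (by omega) fun j u v => by
      simp only [if_pos v, if_pos (show j - 1 ≤ 6 by omega)]
      refine ⟨P.inv _ (ad hx _ _), ?_⟩
      split_ifs with q
      · exact fun o => ne hx _ _ (by omega) (MulAction.injective r⁻¹ o)
      · rwa [show j = 6 by omega]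
  have e4 : y 4 = r⁻¹ • x 8 := (e 4 (by omega) (by omega)).symm
  have e6 : y 6 = x 6 := (e 6 (by omega) (by omega)).symm.trans (r1.inv.at 6)
  have e8 : y 8 = x 8 := (e 8 (by omega) (by omega)).symm
  have k : r⁻¹ * c * r⁻¹⁻¹ * c * (r⁻¹ * c * r⁻¹⁻¹ * c) ∈ P.K (x 4) := by
    rcases m3a L (L.alt 6 h (e6 ▸ T.nr 6) rfl) n (e4 ▸ hc.cj r⁻¹) (e8 ▸ hc) with q | q
    · exact q ▸ one_mem _
    · exact Zc.K hx 6 (e6 ▸ q) 4
  have s : P.adj (x 5) (c • x 4) := adj_fix (hc.ball hx 8 5) (ad hx 5 4)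
  have r4 := r2 4 (by omega) (by omega)
  have r5 : r • c • x 4 = c • x 4 := (r2 5 (by omega) (by omega)).2 _ s
  rw [show r⁻¹ * c * r⁻¹⁻¹ * c = r⁻¹ * (c⁻¹ * r * c) by rw [cm.inv_eq]; group] at k
  have k2 : r * r ∈ P.K (c • x 4) := K.of_cj (by
    convert mul_mem (mul_mem r4 k) (K.nm' r4 (cj_fix r5)) using 1; group)
  obtain ⟨y, h, e, f⟩ := exU hx 5 4 6 s fun q => c1 (oneD hx (hc.fx hx 8 5 11) 8 9 6 (hc.K hx 8 8) (hc.K hx 8 9)
    (ad hx 5 4) (ne hx _ _) q)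
  rw [← f] at k2
  have q : ∀ k, 0 < k → k ≤ 5 → r * r ∈ P.K (y k) := fun k s t => by
    rw [e k (by omega) t]; exact mul_mem (r2 k s (by omega)) (r2 k s (by omega))
  exact r3 (oneU h ((((r1.mul r1).mono (c := 0) (d := 5)).congr fun k s t => e k (by omega) t).up 6 k2.1) 1 2 5
    (q 1 (by omega) (by omega)) (q 2 (by omega) (by omega)) (ad h 6 7) (ne h _ _) (K.up k2 h _))

/-- the main result on polygons, given the local dichotomy -/
theorem disj (fh : P.n = 3 ∨ P.n = 4 ∨ P.n = 6 ∨ P.n = 8) (dich : ∀ {x : ℤ → V}, P.Fr x → ¬ P.Reg (x 0) → P.Exc (x 0))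
    (hx : P.Fr x) (m : Fm d (x 0) (x 1)) (f : Fa d x) : d = 1 := by
  by_contra d1
  have dc : ∀ {x : ℤ → V} (i : ℤ), P.Fr x → ¬ P.Reg (x i) → P.Exc (x i) := fun i h r => by
    simpa using dich (P.shift i h) (by simpa using r)
  have D : ∀ {y : ℤ → V}, P.Fr y → ∃ d : G, d ≠ 1 ∧ Fm d (y 0) (y 1) ∧ Fa d y := fun {y} h => by
    obtain ⟨g, c, e⟩ := P.conn hx h
    refine ⟨g * d * g⁻¹, by simpa using d1, ?_, fun k => e k ▸ cj_fix' (f _)⟩
    rw [e, e]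
    exact (move hx (f.fx (min c 0) (max (c + 1) 1)) m _ _).cj g
  have two : ∀ {x : ℤ → V}, P.Fr x → ¬ P.Reg (x 0) → P.Reg (x 1) → False := fun {x} hx r0 r1 => by
    have L : P.Gl := ⟨fun {y} i h r o => ?_, D⟩
    · have T := L.alt 0 hx r0 rfl
      have := (L.dd T).1
      rcases fh with n | n | n | n
      · omega
      exacts [m2 L T n, m3 L T n, m4 L T n]
    obtain ⟨g, c, e⟩ := P.conn hx h
    have c2 : c % 2 = 0 := by_contra fun q => r (by rw [e, Reg.cj_iff]; exact r1.par hx _ _)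
    have nr : ∀ k, k % 2 = 0 → ¬ P.Reg (y k) := fun k p q => r (q.par h _ _)
    exact ⟨h, fun k p => by rw [e, Reg.cj_iff]; exact r1.par hx _ _, fun k p => dc k h (nr k p), nr⟩
  by_cases r0 : P.Reg (x 0) <;> by_cases r1 : P.Reg (x 1)
  · exact d1 (one hx f 0 1 (r0.up hx (f.fx (-1) 2) m) (r1.up hx (f.fx (-1) 2) m))
  · exact two (rv hx 1) r1 r0
  · exact two hx r0 r1
  · refine both hx fun k => dc k hx fun q => ?_
    by_cases o : k % 2 = 0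
    exacts [r0 (q.par hx _ _), r1 (q.par hx _ _)]

end SPoly
end CF.BN2
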